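import Cfsg.Agent.SymAlt.TreeAlt

/-! Direct decompositions of Sylow 2-subgroups of alternating groups. -/

set_option autoImplicit false

open Equiv Equiv.Perm Cfsg.Agent.SymAlt

namespace Cfsg.Agent.PermB

variable {n : ℕ}

/-- pair swap -/
def tau (n i : ℕ) : Perm (Fin n) :=
  if h : 2 * i + 1 < n then swap ⟨2 * i, by omega⟩ ⟨2 * i + 1, h⟩ else 1

theorem tau_val {i : ℕ} (h : 2 * i + 1 < n) (z : Fin n) :
    (tau n i z : ℕ) = if (z : ℕ) = 2 * i then 2 * i + 1 else if (z : ℕ) = 2 * i + 1 then 2 * i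
      else z := by
  rw [tau, dif_pos h, swap_apply_def]
  simp only [Fin.ext_iff]
  split_ifs <;> rfl

theorem tau_half (i : ℕ) (z : Fin n) : (tau n i z : ℕ) / 2 = z / 2 := by
  by_cases h : 2 * i + 1 < n
  · rw [tau_val h]; split_ifs <;> omega
  · rw [tau, dif_neg h]; rfl

theorem tau_fix {i : ℕ} (h : 2 * i + 1 < n) (z : Fin n) : tau n i z = z ↔ (z : ℕ) / 2 ≠ i := by
  rw [Fin.ext_iff, tau_val h]; split_ifs <;> omega

theorem tau_mem (i : ℕ) : tau n i ∈ tree n := by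
  unfold tau; split_ifs with h
  · exact pairSwap_mem_tree h
  · exact one_mem _

theorem sign_tau {i : ℕ} (h : 2 * i + 1 < n) : sign (tau n i) = -1 := by
  rw [tau, dif_pos h]; exact sign_pairSwap h

theorem tau_mul_self (i : ℕ) : tau n i * tau n i = 1 := by
  unfold tau; split_ifs with h
  · exact swap_mul_self _ _
  · exact one_mul _

theorem tau_inv (i : ℕ) : (tau n i)⁻¹ = tau n i := inv_eq_of_mul_eq_one_right (tau_mul_self i)

/-- elements fixing all pairs -/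
def InE (σ : Perm (Fin n)) : Prop := ∀ z : Fin n, (σ z : ℕ) / 2 = z / 2

theorem InE.mul {σ τ : Perm (Fin n)} (h : InE σ) (h' : InE τ) : InE (σ * τ) := fun z => by
  rw [Perm.mul_apply, h, h']

theorem inE_tau (i : ℕ) : InE (tau n i) := tau_half i

theorem fix_of_half {σ : Perm (Fin n)} {x y : Fin n} (hy : (σ y : ℕ) / 2 = y / 2)
    (h : (x : ℕ) / 2 = y / 2) (hx : σ x = x) : σ y = y := by
  by_cases e : y = x
  · rw [e, hx]
  · have : σ y ≠ x := fun e' => e (σ.injective (e'.trans hx.symm))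
    rw [Ne, Fin.ext_iff] at this
    rw [Fin.ext_iff] at e ⊢
    omega

theorem InE.fix_iff {σ : Perm (Fin n)} (h : InE σ) {x y : Fin n} (e : (x : ℕ) / 2 = y / 2) :
    σ x = x ↔ σ y = y :=
  ⟨fix_of_half (h y) e, fix_of_half (h x) e.symm⟩

theorem eq_of_half {σ τ : Perm (Fin n)} {z : Fin n} (h : (σ z : ℕ) / 2 = z / 2)
    (h' : (τ z : ℕ) / 2 = z / 2) (e : σ z = z ↔ τ z = z) : σ z = τ z := by
  simp only [Fin.ext_iff] at e ⊢
  omega

theorem mul_fix_iff {σ τ : Perm (Fin n)} (h : InE σ) (h' : InE τ) (z : Fin n) :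
    σ (τ z) = z ↔ (σ z = z ↔ τ z = z) := by
  by_cases e : τ z = z
  · simp [e]
  · have h1 := h (τ z)
    have h2 := h' z
    have h3 := h.fix_iff h2
    simp only [e, iff_false, ← h3]
    simp only [Fin.ext_iff] at e ⊢
    omega

theorem tree_half {σ : Perm (Fin n)} (h : σ ∈ tree n) (x y : Fin n) :
    (σ x : ℕ) / 2 = (σ y : ℕ) / 2 ↔ (x : ℕ) / 2 = (y : ℕ) / 2 := by
  simpa using tree_rel h 1 x y

theorem tree_pair {σ : Perm (Fin n)} (h : σ ∈ tree n) (x : Fin n) :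
    2 * ((σ x : ℕ) / 2) + 1 < n ↔ 2 * ((x : ℕ) / 2) + 1 < n := by
  have := tree_last h 1 x
  have h1 := x.2
  have h2 := (σ x).2
  simp only [pow_one] at this
  omega

theorem conj_tau {σ : Perm (Fin n)} (h : σ ∈ tree n) {x : Fin n} (hx : 2 * ((x : ℕ) / 2) + 1 < n) :
    σ * tau n (x / 2) * σ⁻¹ = tau n (σ x / 2) := by
  ext1 z
  obtain ⟨z, rfl⟩ := σ.surjective z
  refine eq_of_half ?_ (tau_half _ _) ?_
  · simp only [Perm.mul_apply, Perm.coe_inv, symm_apply_apply]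
    rw [tree_half h, tau_half]
  · simp only [Perm.mul_apply, Perm.coe_inv, symm_apply_apply, σ.injective.eq_iff]
    rw [tau_fix hx, tau_fix ((tree_pair h x).2 hx), Ne, Ne, tree_half h]

theorem fix_comm {σ w : Perm (Fin n)} (h : σ * w = w * σ) (z : Fin n) :
    w (σ z) = σ z ↔ w z = z := by
  rw [← Perm.mul_apply, ← h, Perm.mul_apply, σ.injective.eq_iff]

theorem tau2_fix {i j : ℕ} (hi : 2 * i + 1 < n) (hj : 2 * j + 1 < n) (z : Fin n) :
    (tau n i * tau n j) z = z ↔ ((z : ℕ) / 2 = i ↔ (z : ℕ) / 2 = j) := by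
  rw [Perm.mul_apply, mul_fix_iff (inE_tau i) (inE_tau j), tau_fix hi, tau_fix hj]; tauto

theorem sign_tau2 {i j : ℕ} (hi : 2 * i + 1 < n) (hj : 2 * j + 1 < n) :
    sign (tau n i * tau n j) = 1 := by
  rw [map_mul, sign_tau hi, sign_tau hj]; decide

theorem mem_of_blockConst (H : Subgroup (Perm (Fin n)))
    (hH : ∀ j, 4 * j + 3 < n → tau n (2 * j) * tau n (2 * j + 1) ∈ H) (k : ℕ) :
    ∀ σ : Perm (Fin n), σ.support.card ≤ k → InE σ →
      (∀ x y : Fin n, (x : ℕ) / 4 = y / 4 → σ x = x → σ y = y) →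
      (∀ x : Fin n, (x : ℕ) / 4 = n / 4 → σ x = x) → σ ∈ H := by
  induction k with
  | zero =>
    intro σ h _ _ _
    rw [Nat.le_zero, Finset.card_eq_zero, support_eq_empty_iff] at h
    exact h ▸ one_mem _
  | succ k ih =>
    intro σ h h1 h2 h3
    by_cases e : σ = 1
    · exact e ▸ one_mem _
    obtain ⟨x, hx⟩ : ∃ x, σ x ≠ x := by
      by_contra h; push Not at h; exact e (Equiv.ext h)
    have hx4 := mt (h3 x) hx
    have hxn := x.2
    have hj : 4 * (x / 4) + 3 < n := by omega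
    have key : ∀ z : Fin n, (σ * (tau n (2 * (x / 4)) * tau n (2 * (x / 4) + 1))) z = z ↔
        (σ z = z ∨ (z : ℕ) / 4 = x / 4) := by
      intro z
      rw [Perm.mul_apply, mul_fix_iff h1 ((inE_tau _).mul (inE_tau _)),
        tau2_fix (by omega) (by omega)]
      by_cases e : (z : ℕ) / 4 = x / 4
      · have := mt (h2 z x e) hx
        simp only [this, e, or_true, iff_true, false_iff]; omega
      · have : ((z : ℕ) / 2 = 2 * (x / 4) ↔ (z : ℕ) / 2 = 2 * (x / 4) + 1) := by omega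
        simp [this, e]
    refine (H.mul_mem_cancel_right (hH _ hj)).1 (ih _ ?_ (h1.mul ((inE_tau _).mul (inE_tau _)))
      ?_ ?_)
    · have : (σ * (tau n (2 * (x / 4)) * tau n (2 * (x / 4) + 1))).support ⊂ σ.support := by
        refine ⟨fun z hz => ?_, fun h => ?_⟩
        · rw [mem_support] at hz ⊢
          exact fun e => hz ((key z).2 (Or.inl e))
        · exact mem_support.1 (h (mem_support.2 hx)) ((key x).2 (Or.inr rfl))
      have := Finset.card_lt_card this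
      omega
    · intro y z e
      rw [key, key, e]
      exact Or.imp_left (h2 y z e)
    · intro y e
      exact (key y).2 (Or.inl (h3 y e))

theorem sign_of_blockConst {σ : Perm (Fin n)} (h1 : InE σ)
    (h2 : ∀ x y : Fin n, (x : ℕ) / 4 = y / 4 → σ x = x → σ y = y)
    (h3 : ∀ x : Fin n, (x : ℕ) / 4 = n / 4 → σ x = x) : sign σ = 1 :=
  mem_of_blockConst (alternatingGroup (Fin n)) (fun _ _ => sign_tau2 (by omega) (by omega)) _ σ
    le_rfl h1 h2 h3

/-- a central element of the even tree group fixes all pairs -/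
theorem inE_of_central (hn : 6 ≤ n) {c : Perm (Fin n)} (hc : c ∈ tree n)
    (h : ∀ σ ∈ tree n, sign σ = 1 → c * σ = σ * c) : InE c := by
  intro z
  by_cases hz : 2 * ((z : ℕ) / 2) + 1 < n
  · have key : ∀ j, 2 * j + 1 < n → j ≠ z / 2 → (c z : ℕ) / 2 = z / 2 ∨ (c z : ℕ) / 2 = j := by
      intro j hj hne
      have := fix_comm (h _ (mul_mem (tau_mem _) (tau_mem _)) (sign_tau2 hz hj)) z
      rw [tau2_fix hz hj, tau2_fix hz hj] at this
      omega
    have k0 := key 0 (by omega)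
    have k1 := key 1 (by omega)
    have k2 := key 2 (by omega)
    omega
  · have := mt (tree_pair hc z).1 hz
    have h1 := z.2
    have h2 := (c z).2
    omega

theorem central_unique {r : ℕ} (hn : 6 ≤ n) (hr : 4 * (n / 4) = 2 ^ r) {c : Perm (Fin n)}
    (hc : c ∈ tree n) (hs : sign c = 1) (h : ∀ σ ∈ tree n, sign σ = 1 → c * σ = σ * c)
    (h1 : c ≠ 1) (z : Fin n) : c z = z ↔ (z : ℕ) / 4 = n / 4 := by
  have hE := inE_of_central hn hc h
  have tr : ∀ x y : Fin n, (x : ℕ) / 4 ≠ n / 4 → (y : ℕ) / 4 ≠ n / 4 → c x = x → c y = y := by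
    intro x y hx hy e
    have x1 : (x : ℕ) / 2 ^ r = 0 := Nat.div_eq_of_lt (by have := x.2; omega)
    have y1 : (y : ℕ) / 2 ^ r = 0 := Nat.div_eq_of_lt (by have := y.2; omega)
    obtain ⟨σ, hσ, rfl, -⟩ := exists_tree_apply_eq (k := r) (x := x) (y := y) (x1.trans y1.symm)
      (by rw [x1]; exact Nat.div_pos (by omega) (by positivity))
    obtain ⟨τ, hτ, hτs, e2⟩ := exists_even_tree_agree_one (by omega) hσ x
    rw [← e2]
    exact (fix_comm (h τ hτ hτs).symm x).2 e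
  have last : ∀ x : Fin n, (x : ℕ) / 4 = n / 4 → c x = x := by
    intro x hx
    by_contra hne
    have hx2 : 2 * ((x : ℕ) / 2) + 1 < n := by
      have h1 := hE x
      have h2 := (c x).2
      have h3 := x.2
      rw [Fin.ext_iff] at hne
      omega
    have hxn := x.2
    have key : ∀ z : Fin n, (c * tau n (x / 2)) z = z ↔ (c z = z ↔ (z : ℕ) / 2 ≠ x / 2) := by
      intro z
      rw [Perm.mul_apply, mul_fix_iff hE (inE_tau _), tau_fix hx2]
    have l2 : ∀ z : Fin n, (z : ℕ) / 4 = n / 4 → (c * tau n (x / 2)) z = z := by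
      intro z hz
      rw [key]
      by_cases e : (z : ℕ) / 2 = x / 2
      · simp [e, hE.fix_iff e, hne]
      · simp only [e, Ne, not_false_eq_true, iff_true]
        have h1 := hE z
        have h2 := (c z).2
        have h3 := z.2
        rw [Fin.ext_iff]
        omega
    have := sign_of_blockConst (hE.mul (inE_tau (x / 2))) (fun y z e hy => by
      by_cases e2 : (z : ℕ) / 4 = n / 4
      · exact l2 z e2
      · rw [key] at hy ⊢
        have e3 : (y : ℕ) / 2 ≠ x / 2 := by omega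
        have e4 : (z : ℕ) / 2 ≠ x / 2 := by omega
        simp only [e3, e4, Ne, not_false_eq_true, iff_true] at hy ⊢
        exact tr y z (by omega) e2 hy) l2
    rw [map_mul, hs, sign_tau hx2] at this
    exact absurd this (by decide)
  refine ⟨fun e => ?_, last z⟩
  by_contra hz
  apply h1
  ext1 y
  by_cases hy : (y : ℕ) / 4 = n / 4
  · exact last y hy
  · exact tr z y hz hy e

/-- data of a direct decomposition of the even tree group -/
structure DecD (A B : Subgroup (Perm (Fin n))) : Prop where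
  hA : ∀ a ∈ A, a ∈ tree n ∧ sign a = 1
  hB : ∀ a ∈ B, a ∈ tree n ∧ sign a = 1
  comm : ∀ a ∈ A, ∀ b ∈ B, a * b = b * a
  disj : ∀ a ∈ A, a ∈ B → a = 1
  gen : ∀ σ ∈ tree n, sign σ = 1 → ∃ a ∈ A, ∃ b ∈ B, σ = a * b

theorem DecD.symm {A B : Subgroup (Perm (Fin n))} (h : DecD A B) : DecD B A :=
  ⟨h.hB, h.hA, fun b hb a ha => (h.comm a ha b hb).symm, fun b hb ha => h.disj b ha hb,
    fun σ h1 h2 => by
      obtain ⟨a, ha, b, hb, e⟩ := h.gen σ h1 h2
      exact ⟨b, hb, a, ha, e.trans (h.comm a ha b hb)⟩⟩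

theorem DecD.conj_mem {A B : Subgroup (Perm (Fin n))} (h : DecD A B) {σ a : Perm (Fin n)}
    (h1 : σ ∈ tree n) (h2 : sign σ = 1) (ha : a ∈ A) : σ * a * σ⁻¹ ∈ A := by
  obtain ⟨a', ha', b, hb, rfl⟩ := h.gen σ h1 h2
  have : a' * b * a * (a' * b)⁻¹ = a' * a * a'⁻¹ := by
    rw [mul_assoc a', ← h.comm a ha b hb]; group
  rw [this]
  exact mul_mem (mul_mem ha' ha) (inv_mem ha')

theorem DecD.exists_central {A B : Subgroup (Perm (Fin n))} (h : DecD A B) (hA : A ≠ ⊥) :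
    ∃ c ∈ A, c ≠ 1 ∧ ∀ σ ∈ tree n, sign σ = 1 → c * σ = σ * c := by
  have hp : IsPGroup 2 A := isPGroup_tree.to_le fun a ha => (h.hA a ha).1
  have := (Subgroup.nontrivial_iff_ne_bot A).2 hA
  have := hp.center_nontrivial
  obtain ⟨⟨c, hc⟩, h1⟩ := exists_ne (1 : Subgroup.center A)
  refine ⟨c, c.2, fun e => h1 (Subtype.ext (Subtype.ext e)), fun σ h1 h2 => ?_⟩
  obtain ⟨a, ha, b, hb, rfl⟩ := h.gen σ h1 h2
  have e : a * c = c * a := congrArg Subtype.val (Subgroup.mem_center_iff.1 hc ⟨a, ha⟩)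
  rw [← mul_assoc, ← e, mul_assoc, h.comm _ c.2 b hb, mul_assoc]

theorem DecD.not_of_pow {A B : Subgroup (Perm (Fin n))} (h : DecD A B) (hA : A ≠ ⊥) (hB : B ≠ ⊥)
    {r : ℕ} (hn : 6 ≤ n) (hr : 4 * (n / 4) = 2 ^ r) : False := by
  obtain ⟨c, c1, c2, c3⟩ := h.exists_central hA
  obtain ⟨d, d1, d2, d3⟩ := h.symm.exists_central hB
  have : c = d := by
    ext1 z
    refine eq_of_half (inE_of_central hn (h.hA c c1).1 c3 z) (inE_of_central hn (h.hB d d1).1 d3 z) ?_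
    rw [central_unique hn hr (h.hA c c1).1 (h.hA c c1).2 c3 c2,
      central_unique hn hr (h.hB d d1).1 (h.hB d d1).2 d3 d2]
  exact c2 (h.disj c c1 (this ▸ d1))

theorem DecD.same_move {A B : Subgroup (Perm (Fin n))} (h : DecD A B) (S : ℕ → Prop)
    (hS : ∀ σ ∈ tree n, ∀ z : Fin n, S (σ z / 2) ↔ S (z / 2)) {u v : Fin n} (hu : S (u / 2))
    (hv : ¬ S (v / 2)) (hu2 : 2 * ((u : ℕ) / 2) + 1 < n) (hv2 : 2 * ((v : ℕ) / 2) + 1 < n)
    {x y : Perm (Fin n)} (hx : x ∈ A) (hy : y ∈ B) (h1 : (x u : ℕ) / 2 ≠ u / 2)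
    (h2 : (y u : ℕ) / 2 ≠ u / 2) : (x u : ℕ) / 2 = y u / 2 := by
  have xt := (h.hA x hx).1
  have yt := (h.hB y hy).1
  have hw := mul_mem hx (h.conj_mem (mul_mem (tau_mem (u / 2)) (tau_mem (v / 2)))
    (sign_tau2 hu2 hv2) (inv_mem hx))
  have e : x * (tau n (u / 2) * tau n (v / 2) * x⁻¹ * (tau n (u / 2) * tau n (v / 2))⁻¹) =
      (tau n (x u / 2) * tau n (x v / 2)) * (tau n (v / 2) * tau n (u / 2)) := by
    rw [← conj_tau xt hu2, ← conj_tau xt hv2, mul_inv_rev, tau_inv, tau_inv]; group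
  rw [e] at hw
  have := fix_comm (h.comm _ hw y hy).symm u
  have hxu := (tree_pair xt u).2 hu2
  have hxv := (tree_pair xt v).2 hv2
  rw [Perm.mul_apply, Perm.mul_apply (tau n (x u / 2) * _),
    mul_fix_iff ((inE_tau _).mul (inE_tau _)) ((inE_tau _).mul (inE_tau _)),
    mul_fix_iff ((inE_tau _).mul (inE_tau _)) ((inE_tau _).mul (inE_tau _)),
    tau2_fix hxu hxv, tau2_fix hxu hxv, tau2_fix hv2 hu2, tau2_fix hv2 hu2] at this
  have s1 := (hS y yt u).2 hu
  have s2 := mt (hS x xt v).1 hv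
  have n1 : (y u : ℕ) / 2 ≠ v / 2 := fun e => hv (e ▸ s1)
  have n2 : (y u : ℕ) / 2 ≠ x v / 2 := fun e => s2 (e ▸ s1)
  have n3 : (u : ℕ) / 2 ≠ v / 2 := fun e => hv (e ▸ hu)
  have n4 : (u : ℕ) / 2 ≠ x v / 2 := fun e => s2 (e ▸ hu)
  omega

theorem DecD.not_both_aux {A B : Subgroup (Perm (Fin n))} (h : DecD A B) {u : Fin n}
    {x y a b g : Perm (Fin n)} (hx : x ∈ A) (hy : y ∈ B) (ha : a ∈ A) (hb : b ∈ B)
    (hg : a * b = g) (e : (x u : ℕ) / 2 = y u / 2) (g1 : g (x u) = x u) (g2 : g u ≠ u)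
    (hbu : b u = u) (hau : (a u : ℕ) / 2 = u / 2) : False := by
  have k1 : b (x u) = x u := (fix_comm (h.comm x hx b hb) u).2 hbu
  have k2 : a (x u) = x u := by rw [← hg, Perm.mul_apply, k1] at g1; exact g1
  have k3 : a (y u) = y u := by
    refine fix_of_half ?_ e k2
    rw [← Perm.mul_apply, h.comm a ha y hy, Perm.mul_apply, tree_half (h.hB y hy).1, hau]
  rw [fix_comm (h.comm a ha y hy).symm] at k3
  exact g2 (by rw [← hg, Perm.mul_apply, hbu, k3])

theorem DecD.not_both {A B : Subgroup (Perm (Fin n))} (h : DecD A B) (S : ℕ → Prop)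
    (hS : ∀ σ ∈ tree n, ∀ z : Fin n, S (σ z / 2) ↔ S (z / 2)) {u v : Fin n} (hu : S (u / 2))
    (hv : ¬ S (v / 2)) (hu2 : 2 * ((u : ℕ) / 2) + 1 < n) (hv2 : 2 * ((v : ℕ) / 2) + 1 < n)
    {x y : Perm (Fin n)} (hx : x ∈ A) (hy : y ∈ B) (h1 : (x u : ℕ) / 2 ≠ u / 2)
    (h2 : (y u : ℕ) / 2 ≠ u / 2) : False := by
  have e := h.same_move S hS hu hv hu2 hv2 hx hy h1 h2
  obtain ⟨a, ha, b, hb, hg⟩ := h.gen _ (mul_mem (tau_mem (u / 2)) (tau_mem (v / 2)))
    (sign_tau2 hu2 hv2)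
  have n3 : (u : ℕ) / 2 ≠ v / 2 := fun e => hv (e ▸ hu)
  have g2 : (tau n (u / 2) * tau n (v / 2)) u ≠ u := by rw [Ne, tau2_fix hu2 hv2]; omega
  have fixp : ∀ c ∈ tree n, c * (tau n (u / 2) * tau n (v / 2)) =
      tau n (u / 2) * tau n (v / 2) * c → (c u : ℕ) / 2 = u / 2 := by
    intro c hc e
    have := mt (fix_comm e u).1 g2
    rw [tau2_fix hu2 hv2] at this
    have n1 : (c u : ℕ) / 2 ≠ v / 2 := fun e => hv (e ▸ (hS c hc u).2 hu)
    omega
  have hau := fixp a (h.hA a ha).1 (by rw [hg, mul_assoc, h.comm a ha b hb])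
  have hbu := fixp b (h.hB b hb).1 (by rw [hg, ← mul_assoc, h.comm a ha b hb])
  have g1 : ∀ w : Fin n, S (w / 2) → (w : ℕ) / 2 ≠ u / 2 →
      (tau n (u / 2) * tau n (v / 2)) w = w := by
    intro w h1 h2
    rw [tau2_fix hu2 hv2]
    have n1 : (w : ℕ) / 2 ≠ v / 2 := fun e => hv (e ▸ h1)
    omega
  by_cases hb1 : b u = u
  · exact h.not_both_aux hx hy ha hb hg.symm e (g1 _ ((hS x (h.hA x hx).1 u).2 hu) h1) g2 hb1 hau
  · have ha1 : a u = u := by
      by_contra ha1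
      apply g2
      rw [hg, Perm.mul_apply]
      have k1 : (a (b u) : ℕ) / 2 = u / 2 := by
        rw [← hau, tree_half (h.hA a ha).1, hbu]
      have k2 : a (b u) ≠ a u := fun e => hb1 (a.injective e)
      simp only [Ne, Fin.ext_iff] at k2 ha1 ⊢
      omega
    exact h.symm.not_both_aux hy hx hb ha ((h.comm a ha b hb).symm.trans hg.symm) e.symm
      (g1 _ ((hS y (h.hB y hy).1 u).2 hu) h2) g2 ha1 hbu

/-- swap of the two pairs in a block of four -/
theorem exists_blockSwap {j : ℕ} (hj : 4 * j + 3 < n) : ∃ s ∈ tree n, sign s = 1 ∧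
    (∀ z : Fin n, (z : ℕ) / 4 = j → (s z : ℕ) / 4 = j ∧ (s z : ℕ) / 2 ≠ z / 2) ∧
    ∀ z : Fin n, (z : ℕ) / 4 ≠ j → s z = z := by
  have h1 : j < n / 2 ^ 2 := by omega
  have h2 : 2 < 2 ^ 2 := by decide
  have e : xorPerm 2 j 2 h1 h2 = swap ⟨4 * j, by omega⟩ ⟨4 * j + 2, by omega⟩ *
      swap ⟨4 * j + 1, by omega⟩ ⟨4 * j + 3, hj⟩ := by
    ext z
    rw [xorPerm_val]
    have hz : ∀ c < 4, (4 * j + c) ^^^ 2 = 4 * j + (c ^^^ 2) := by
      intro c hc
      have := Nat.xor_div_two_pow (a := 4 * j + c) (b := 2) (n := 2)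
      have h3 := Nat.xor_mod_two_pow (a := 4 * j + c) (b := 2) (n := 2)
      rw [show (4 * j + c) % 2 ^ 2 = c by omega, show 2 % 2 ^ 2 = 2 by rfl] at h3
      rw [show 2 / 2 ^ 2 = 0 by rfl, Nat.xor_zero] at this
      omega
    simp only [Perm.mul_apply, swap_apply_def, Fin.ext_iff]
    by_cases h : (z : ℕ) / 2 ^ 2 = j
    · rw [if_pos h]
      have : (z : ℕ) = 4 * j + 0 ∨ (z : ℕ) = 4 * j + 1 ∨ (z : ℕ) = 4 * j + 2 ∨
          (z : ℕ) = 4 * j + 3 := by omega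
      rcases this with e | e | e | e <;> rw [e, hz _ (by decide)] <;> simp [e]
    · rw [if_neg h]
      split_ifs <;> simp_all <;> omega
  refine ⟨_, xorPerm_mem_tree h1 h2, ?_, fun z hz => ⟨?_, ?_⟩, fun z hz => xorPerm_apply_of_ne _ _ hz⟩
  · rw [e, map_mul, sign_swap (by simp), sign_swap (by simp)]; decide
  · exact (xorPerm_div_of_le h1 h2 le_rfl z).trans hz
  · rw [xorPerm_val_of_eq h1 h2 hz]
    exact xor_two_pow_div_ne z 1

theorem DecD.not_of_split {A B : Subgroup (Perm (Fin n))} (h : DecD A B) (hA : A ≠ ⊥) (hB : B ≠ ⊥)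
    (hn : n % 4 = 0 ∨ n % 4 = 1) (S : ℕ → Prop)
    (hS : ∀ σ ∈ tree n, ∀ z : Fin n, S (σ z / 2) ↔ S (z / 2)) {u v : Fin n} (hu : S (u / 2))
    (hv : ¬ S (v / 2)) (hu2 : 2 * ((u : ℕ) / 2) + 1 < n) (hv2 : 2 * ((v : ℕ) / 2) + 1 < n) :
    False := by
  have last : ∀ σ ∈ tree n, ∀ z : Fin n, (z : ℕ) / 4 = n / 4 → σ z = z := by
    intro σ hσ z hz
    have := (tree_last hσ 2 z).2 hz
    have h1 := z.2
    have h2 := (σ z).2
    rw [Fin.ext_iff]; omega
  have nb : ∀ {A B : Subgroup (Perm (Fin n))}, DecD A B → ∀ z : Fin n, ∀ x ∈ A,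
      (x z : ℕ) / 2 ≠ z / 2 → ∀ y ∈ B, (y z : ℕ) / 2 = z / 2 := by
    intro A B h z x hx h1 y hy
    by_contra h2
    have hz : 2 * ((z : ℕ) / 2) + 1 < n := by
      have := mt (last x (h.hA x hx).1 z) (fun e => h1 (by rw [e]))
      have := z.2
      omega
    by_cases hs : S (z / 2)
    · exact h.not_both S hS hs hv hz hv2 hx hy h1 h2
    · exact h.not_both (fun i => ¬ S i) (fun σ hσ z => (hS σ hσ z).not) hs (not_not.2 hu) hz hu2
        hx hy h1 h2
  -- block constancy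
  have bc : ∀ {A B : Subgroup (Perm (Fin n))}, DecD A B → ∀ z : Fin n,
      (∀ y ∈ B, (y z : ℕ) / 2 = z / 2) → ∀ w : Fin n, (z : ℕ) / 4 = w / 4 →
      (∀ y ∈ B, (y w : ℕ) / 2 = w / 2) ∧ ∀ y ∈ B, y z = z → y w = w := by
    intro A B h z hz w e
    by_cases e2 : (z : ℕ) / 2 = w / 2
    · have k : ∀ y ∈ B, (y w : ℕ) / 2 = w / 2 := fun y hy => by
        rw [← e2, ← hz y hy, tree_half (h.hB y hy).1, e2]
      exact ⟨k, fun y hy => fix_of_half (k y hy) e2⟩
    have hzn := z.2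
    have hwn := w.2
    obtain ⟨s, s1, s2, s3, -⟩ := exists_blockSwap (n := n) (j := z / 4) (by omega)
    obtain ⟨a, ha, b, hb, rfl⟩ := h.gen s s1 s2
    have k0 : (a z : ℕ) / 2 = w / 2 := by
      have := s3 z rfl
      rw [← (tree_half (h.hA a ha).1 _ _).2 (hz b hb)]
      rw [Perm.mul_apply] at this
      omega
    have k : ∀ y ∈ B, (y w : ℕ) / 2 = w / 2 := fun y hy => by
      rw [← (tree_half (h.hB y hy).1 _ _).2 k0, ← Perm.mul_apply, ← h.comm a ha y hy,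
        Perm.mul_apply, (tree_half (h.hA a ha).1 _ _).2 (hz y hy), k0]
    exact ⟨k, fun y hy e => fix_of_half (k y hy) k0 ((fix_comm (h.comm a ha y hy) z).2 e)⟩
  have one : ∀ {A B : Subgroup (Perm (Fin n))}, DecD A B → B ≠ ⊥ →
      ∃ z : Fin n, ∃ y ∈ B, (y z : ℕ) / 2 ≠ z / 2 := by
    intro A B h hB
    by_contra hc
    push Not at hc
    apply hB
    rw [eq_bot_iff]
    intro b hb
    refine h.disj b (mem_of_blockConst A (fun j hj => ?_) _ b le_rfl (fun z => hc z b hb)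
      (fun x y e => (bc h x (hc x) y e).2 b hb) (last b (h.hB b hb).1)) hb
    obtain ⟨s, s1, s2, s3, s4⟩ := exists_blockSwap hj
    obtain ⟨w, hw1, hw2⟩ : ∃ w : Fin n, 2 * ((w : ℕ) / 2) + 1 < n ∧ (w : ℕ) / 4 ≠ j := by
      by_cases e : (u : ℕ) / 4 = j
      · by_cases e' : (v : ℕ) / 4 = j
        · exfalso
          have n3 : (u : ℕ) / 2 ≠ v / 2 := fun e => hv (e ▸ hu)
          have := s3 u e
          have k : (s u : ℕ) / 2 = v / 2 := by omega
          exact hv (k ▸ (hS s s1 u).2 hu)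
        · exact ⟨v, hv2, e'⟩
      · exact ⟨u, hu2, e⟩
    let p : Fin n := ⟨4 * j, by omega⟩
    have hp : 2 * ((p : ℕ) / 2) + 1 < n := by simp only [p]; omega
    have hp0 : (p : ℕ) / 2 = 2 * j := by simp only [p]; omega
    have hp1 : (s p : ℕ) / 2 = 2 * j + 1 := by
      have := s3 p (by simp only [p]; omega)
      omega
    obtain ⟨a, ha, b, hb, e1⟩ := h.gen s s1 s2
    obtain ⟨a', ha', b', hb', e2⟩ := h.gen _ (mul_mem (tau_mem (w / 2)) (tau_mem (p / 2)))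
      (sign_tau2 hw1 hp)
    have bb : b * b' = b' * b := by
      ext1 z
      have Eb : InE b := fun z => hc z b hb
      have Eb' : InE b' := fun z => hc z b' hb'
      refine eq_of_half ((Eb.mul Eb') z) ((Eb'.mul Eb) z) ?_
      rw [Perm.mul_apply, Perm.mul_apply, mul_fix_iff Eb Eb', mul_fix_iff Eb' Eb]; tauto
    have e3 : tau n (2 * j) * tau n (2 * j + 1) = (tau n (w / 2) * tau n (p / 2))⁻¹ *
        (s * (tau n (w / 2) * tau n (p / 2)) * s⁻¹) := by
      have : s * (tau n (w / 2) * tau n (p / 2)) * s⁻¹ =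
          (s * tau n (w / 2) * s⁻¹) * (s * tau n (p / 2) * s⁻¹) := by group
      rw [this, conj_tau s1 hw1, conj_tau s1 hp, s4 w hw2, hp1, mul_inv_rev, tau_inv, tau_inv,
        hp0, mul_assoc, ← mul_assoc (tau n (w / 2)), tau_mul_self, one_mul]
    have e4 : (a' * b')⁻¹ * (a * b * (a' * b') * (a * b)⁻¹) = a'⁻¹ * a * a' * a⁻¹ := by
      have c1 : Commute b a' := (h.comm a' ha' b hb).symm
      have c2 : Commute b' (a'⁻¹ * a * a' * a⁻¹) := (h.comm _ (mul_mem (mul_mem (mul_mem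
        (inv_mem ha') ha) ha') (inv_mem ha)) b' hb').symm
      have c3 : Commute b' a⁻¹ := (h.comm _ (inv_mem ha) b' hb').symm
      calc _ = b'⁻¹ * (a'⁻¹ * a * (b * a') * b' * b⁻¹ * a⁻¹) := by group
        _ = b'⁻¹ * (a'⁻¹ * a * a' * (b * b' * b⁻¹ * a⁻¹)) := by rw [c1.eq]; group
        _ = b'⁻¹ * (a'⁻¹ * a * a' * a⁻¹ * b') := by rw [bb, mul_inv_cancel_right, c3.eq]; group
        _ = _ := by rw [← c2.eq]; group
    rw [e3, e2, e1, e4]
    exact mul_mem (mul_mem (mul_mem (inv_mem ha') ha) ha') (inv_mem ha)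
  obtain ⟨p, x, hx, hp⟩ := one h.symm hA
  obtain ⟨q, y, hy, hq⟩ := one h hB
  have hp2 : 2 * ((p : ℕ) / 2) + 1 < n := by
    have := mt (last x (h.hA x hx).1 p) (fun e => hp (by rw [e]))
    have := p.2
    omega
  have hq2 : 2 * ((q : ℕ) / 2) + 1 < n := by
    have := mt (last y (h.hB y hy).1 q) (fun e => hq (by rw [e]))
    have := q.2
    omega
  obtain ⟨a, ha, b, hb, e⟩ := h.gen _ (mul_mem (tau_mem (p / 2)) (tau_mem (q / 2)))
    (sign_tau2 hp2 hq2)
  have eb : b * tau n (q / 2) = a⁻¹ * tau n (p / 2) := by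
    rw [eq_inv_mul_iff_mul_eq, ← mul_assoc, ← e, mul_assoc, tau_mul_self, mul_one]
  have cases : ∀ z : Fin n, ((∀ y ∈ B, (y z : ℕ) / 2 = z / 2) ∧ (z : ℕ) / 2 ≠ q / 2) ∨
      ((∀ x ∈ A, (x z : ℕ) / 2 = z / 2) ∧ (z : ℕ) / 2 ≠ p / 2) := by
    intro z
    by_cases h1 : ∀ y ∈ B, (y z : ℕ) / 2 = z / 2
    · refine Or.inl ⟨h1, fun e => hq ?_⟩
      rw [← e, ← h1 y hy, tree_half (h.hB y hy).1, e]
    · push Not at h1
      obtain ⟨y', hy', h1⟩ := h1
      have h2 := nb h.symm z y' hy' h1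
      refine Or.inr ⟨h2, fun e => hp ?_⟩
      rw [← e, ← h2 x hx, tree_half (h.hA x hx).1, e]
  have := sign_of_blockConst (σ := b * tau n (q / 2)) (fun z => by
      rcases cases z with ⟨h1, h2⟩ | ⟨h1, h2⟩
      · rw [Perm.mul_apply, (tau_fix hq2 z).2 h2, h1 b hb]
      · rw [eb, Perm.mul_apply, (tau_fix hp2 z).2 h2, h1 _ (inv_mem ha)])
    (fun z w e => by
      rcases cases z with ⟨h1, h2⟩ | ⟨h1, h2⟩
      · obtain ⟨k1, k2⟩ := bc h z h1 w e
        have h3 : (w : ℕ) / 2 ≠ q / 2 := fun e => hq (by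
          rw [← e, ← k1 y hy, tree_half (h.hB y hy).1, e])
        rw [Perm.mul_apply, Perm.mul_apply, (tau_fix hq2 z).2 h2, (tau_fix hq2 w).2 h3]
        exact k2 b hb
      · obtain ⟨k1, k2⟩ := bc h.symm z h1 w e
        have h3 : (w : ℕ) / 2 ≠ p / 2 := fun e => hp (by
          rw [← e, ← k1 x hx, tree_half (h.hA x hx).1, e])
        rw [eb, Perm.mul_apply, Perm.mul_apply, (tau_fix hp2 z).2 h2, (tau_fix hp2 w).2 h3]
        exact k2 _ (inv_mem ha))
    (last _ (mul_mem (h.hB b hb).1 (tau_mem _)))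
  rw [map_mul, (h.hB b hb).2, sign_tau hq2] at this
  exact absurd this (by decide)

end Cfsg.Agent.PermB
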