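import Cfsg.Agent.PermB.Dec
import Cfsg.Prelude.Def_TwoFusion

/-! Direct decompositions of Sylow 2-subgroups of alternating groups, II. -/

set_option autoImplicit false

open Equiv Equiv.Perm Cfsg.Agent.SymAlt

namespace Cfsg.Agent.PermB

/-- `H` is directly decomposable -/
def Decomp {G : Type*} [Group G] (H : Subgroup G) : Prop :=
  ∃ S₁ S₂ : Subgroup G, S₁ ≠ ⊥ ∧ S₂ ≠ ⊥ ∧ Cfsg.IsInternalDirectProduct S₁ S₂ H

theorem Decomp.map {G : Type*} [Group G] {H : Subgroup G} (h : Decomp H) (e : G ≃* G) :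
    Decomp (H.map e.toMonoidHom) := by
  obtain ⟨A, B, hA, hB, h1, h2, h3, h4, h5⟩ := h
  refine ⟨A.map e.toMonoidHom, B.map e.toMonoidHom, ?_, ?_, Subgroup.map_mono h1,
    Subgroup.map_mono h2, ?_, ?_, ?_⟩
  · rwa [Ne, Subgroup.map_eq_bot_iff_of_injective _ e.injective]
  · rwa [Ne, Subgroup.map_eq_bot_iff_of_injective _ e.injective]
  · rintro _ ⟨a, ha, rfl⟩ _ ⟨b, hb, rfl⟩
    rw [← map_mul, ← map_mul, h3 a ha b hb]
  · rw [← Subgroup.map_inf _ _ _ e.injective, h4, Subgroup.map_bot]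
  · rw [← Subgroup.map_sup, h5]

theorem decomp_sylow {G : Type*} [Group G] [Finite G] {p : ℕ} [Fact p.Prime] (P Q : Sylow p G)
    (h : Decomp (P : Subgroup G)) : Decomp (Q : Subgroup G) := by
  obtain ⟨g, hg⟩ := MulAction.exists_smul_eq G P Q
  rw [← hg]
  exact h.map (MulAut.conj g)

theorem mem_sup_comm {G : Type*} [Group G] {A B : Subgroup G}
    (h : ∀ a ∈ A, ∀ b ∈ B, a * b = b * a) {x : G} (hx : x ∈ A ⊔ B) :
    ∃ a ∈ A, ∃ b ∈ B, x = a * b := by
  let T : Subgroup G :=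
    { carrier := {x | ∃ a ∈ A, ∃ b ∈ B, x = a * b}
      one_mem' := ⟨1, one_mem _, 1, one_mem _, by simp⟩
      mul_mem' := by
        rintro _ _ ⟨a, ha, b, hb, rfl⟩ ⟨a', ha', b', hb', rfl⟩
        refine ⟨a * a', mul_mem ha ha', b * b', mul_mem hb hb', ?_⟩
        rw [mul_assoc, mul_assoc, ← mul_assoc b, ← h a' ha' b hb, mul_assoc]
      inv_mem' := by
        rintro _ ⟨a, ha, b, hb, rfl⟩
        refine ⟨a⁻¹, inv_mem ha, b⁻¹, inv_mem hb, ?_⟩
        rw [mul_inv_rev, h _ (inv_mem ha) _ (inv_mem hb)] }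
  have : A ⊔ B ≤ T := sup_le (fun a ha => ⟨a, ha, 1, one_mem _, by simp⟩)
    (fun b hb => ⟨1, one_mem _, b, hb, by simp⟩)
  exact this hx

variable {n : ℕ}

theorem decomp_iff : Decomp (altTree n) ↔
    ∃ A B : Subgroup (Perm (Fin n)), A ≠ ⊥ ∧ B ≠ ⊥ ∧ DecD A B := by
  constructor
  · rintro ⟨A, B, hA, hB, h1, h2, h3, h4, h5⟩
    refine ⟨A.map (alternatingGroup (Fin n)).subtype, B.map (alternatingGroup (Fin n)).subtype,
      ?_, ?_, ?_, ?_, ?_, ?_, ?_⟩
    · rwa [Ne, Subgroup.map_eq_bot_iff_of_injective _ Subtype.val_injective]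
    · rwa [Ne, Subgroup.map_eq_bot_iff_of_injective _ Subtype.val_injective]
    · rintro _ ⟨a, ha, rfl⟩
      exact ⟨h1 ha, mem_alternatingGroup.1 a.2⟩
    · rintro _ ⟨a, ha, rfl⟩
      exact ⟨h2 ha, mem_alternatingGroup.1 a.2⟩
    · rintro _ ⟨a, ha, rfl⟩ _ ⟨b, hb, rfl⟩
      rw [← map_mul, ← map_mul, h3 a ha b hb]
    · rintro _ ⟨a, ha, rfl⟩ ⟨b, hb, e⟩
      have e' : b = a := Subtype.val_injective e
      have : a ∈ A ⊓ B := ⟨ha, e' ▸ hb⟩
      rw [h4, Subgroup.mem_bot] at this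
      rw [this, map_one]
    · intro σ h hs
      have : (⟨σ, mem_alternatingGroup.2 hs⟩ : alternatingGroup (Fin n)) ∈ A ⊔ B := by
        rw [h5]; exact h
      obtain ⟨a, ha, b, hb, e⟩ := mem_sup_comm h3 this
      exact ⟨a, ⟨a, ha, rfl⟩, b, ⟨b, hb, rfl⟩, congrArg Subtype.val e⟩
  · rintro ⟨A, B, hA, hB, h⟩
    have key : ∀ C : Subgroup (Perm (Fin n)), C ≠ ⊥ → (∀ a ∈ C, a ∈ tree n ∧ sign a = 1) →
        C.subgroupOf (alternatingGroup (Fin n)) ≠ ⊥ := by
      intro C hC h' e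
      apply hC
      rw [eq_bot_iff]
      intro a ha
      have : (⟨a, mem_alternatingGroup.2 (h' a ha).2⟩ : alternatingGroup (Fin n)) ∈
          C.subgroupOf (alternatingGroup (Fin n)) := ha
      rw [e, Subgroup.mem_bot] at this
      exact congrArg Subtype.val this
    refine ⟨A.subgroupOf _, B.subgroupOf _, key A hA h.hA, key B hB h.hB,
      fun a ha => (h.hA _ ha).1, fun a ha => (h.hB _ ha).1,
      fun a ha b hb => Subtype.ext (h.comm _ ha _ hb), ?_, ?_⟩
    · rw [eq_bot_iff]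
      rintro a ⟨ha, hb⟩
      exact Subtype.ext (h.disj _ ha hb)
    · refine le_antisymm (sup_le (fun a ha => (h.hA _ ha).1) (fun a ha => (h.hB _ ha).1)) ?_
      intro σ hσ
      obtain ⟨a, ha, b, hb, e⟩ := h.gen σ hσ (mem_alternatingGroup.1 σ.2)
      have : σ = ⟨a, mem_alternatingGroup.2 (h.hA a ha).2⟩ *
          ⟨b, mem_alternatingGroup.2 (h.hB b hb).2⟩ := Subtype.ext e
      rw [this]
      exact mul_mem (Subgroup.mem_sup_left ha) (Subgroup.mem_sup_right hb)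

theorem exists_split (hn : 4 ≤ n) (h : ∀ r : ℕ, 4 * (n / 4) ≠ 2 ^ r) :
    ∃ K l : ℕ, 2 ^ K = 4 * l ∧ l < n / 4 ∧ n / 4 < 2 * l := by
  have h0 : n / 4 ≠ 0 := by omega
  have h1 := Nat.pow_log_le_self 2 h0
  have h2 := Nat.lt_pow_succ_log_self (b := 2) (by norm_num) (n / 4)
  refine ⟨Nat.log 2 (n / 4) + 2, 2 ^ Nat.log 2 (n / 4), by ring, ?_, ?_⟩
  · refine lt_of_le_of_ne h1 fun e => h (Nat.log 2 (n / 4) + 2) ?_
    rw [pow_add, e]; ring
  · rw [Nat.succ_eq_add_one, pow_succ] at h2; omega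

theorem tree_lt {K l : ℕ} (hK : 2 ^ K = 4 * l) (h1 : l < n / 4) (h2 : n / 4 < 2 * l)
    {σ : Perm (Fin n)} (hσ : σ ∈ tree n) (z : Fin n) : (σ z : ℕ) < 4 * l ↔ (z : ℕ) < 4 * l := by
  have := tree_last hσ K z
  rw [hK] at this
  have hl : 0 < 4 * l := by omega
  have key : ∀ x : ℕ, x ≤ n → (x / (4 * l) = 1 ↔ ¬ x < 4 * l) := by
    intro x hx
    rw [Nat.div_eq_iff hl]; omega
  rw [(key n le_rfl).2 (by omega), key _ (σ z).2.le, key _ z.2.le] at this
  tauto

theorem not_decomp (hn : 6 ≤ n)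
    (h : ¬ ((n % 4 = 2 ∨ n % 4 = 3) ∧ ∀ r : ℕ, 4 * (n / 4) ≠ 2 ^ r)) : ¬ Decomp (altTree n) := by
  rw [decomp_iff]
  rintro ⟨A, B, hA, hB, hD⟩
  by_cases h' : ∀ r : ℕ, 4 * (n / 4) ≠ 2 ^ r
  · obtain ⟨K, l, hK, h1, h2⟩ := exists_split (by omega) h'
    have h4 : n % 4 = 0 ∨ n % 4 = 1 := by
      have : ¬ (n % 4 = 2 ∨ n % 4 = 3) := fun e => h ⟨e, h'⟩
      omega
    refine hD.not_of_split hA hB h4 (fun i => i < 2 * l) ?_ (u := ⟨0, by omega⟩)
      (v := ⟨4 * l, by omega⟩) ?_ ?_ ?_ ?_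
    · intro σ hσ z
      have := tree_lt hK h1 h2 hσ z
      omega
    all_goals simp only; omega
  · push Not at h'
    obtain ⟨r, hr⟩ := h'
    exact hD.not_of_pow hA hB hn hr

theorem decD_small {a b : Perm (Fin n)} (ha : a ∈ tree n) (hb : b ∈ tree n) (sa : sign a = 1)
    (sb : sign b = 1) (a2 : a * a = 1) (b2 : b * b = 1) (ab : a * b = b * a) (a1 : a ≠ 1)
    (b1 : b ≠ 1) (e : a ≠ b)
    (h : ∀ σ ∈ tree n, sign σ = 1 → σ = 1 ∨ σ = a ∨ σ = b ∨ σ = a * b) : Decomp (altTree n) := by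
  have key : ∀ c : Perm (Fin n), c * c = 1 → ∃ C : Subgroup (Perm (Fin n)),
      ∀ x, x ∈ C ↔ x = 1 ∨ x = c := by
    intro c hc
    refine ⟨{ carrier := {x | x = 1 ∨ x = c}
              one_mem' := Or.inl rfl
              mul_mem' := ?_
              inv_mem' := ?_ }, fun x => Iff.rfl⟩
    · rintro x y (rfl | rfl) (rfl | rfl) <;> simp [hc]
    · rintro x (rfl | rfl)
      · simp
      · exact Or.inr (inv_eq_of_mul_eq_one_right hc)
  obtain ⟨A, hA⟩ := key a a2
  obtain ⟨B, hB⟩ := key b b2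
  rw [decomp_iff]
  refine ⟨A, B, ?_, ?_, ?_, ?_, ?_, ?_, ?_⟩
  · intro e
    have := (hA a).2 (Or.inr rfl)
    rw [e] at this; exact a1 this
  · intro e
    have := (hB b).2 (Or.inr rfl)
    rw [e] at this; exact b1 this
  · intro x hx
    rcases (hA x).1 hx with rfl | rfl
    · exact ⟨one_mem _, map_one _⟩
    · exact ⟨ha, sa⟩
  · intro x hx
    rcases (hB x).1 hx with rfl | rfl
    · exact ⟨one_mem _, map_one _⟩
    · exact ⟨hb, sb⟩
  · intro x hx y hy
    rcases (hA x).1 hx with rfl | rfl <;> rcases (hB y).1 hy with rfl | rfl <;> simp [ab]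
  · intro x hx hy
    rcases (hA x).1 hx with rfl | rfl
    · rfl
    · rcases (hB x).1 hy with e' | e'
      · exact e'
      · exact absurd e' e
  · intro σ h1 h2
    have m1 := (hA a).2 (Or.inr rfl)
    have m2 := (hB b).2 (Or.inr rfl)
    rcases h σ h1 h2 with e | e | e | e
    · exact ⟨1, one_mem _, 1, one_mem _, by simp [e]⟩
    · exact ⟨a, m1, 1, one_mem _, by simp [e]⟩
    · exact ⟨1, one_mem _, b, m2, by simp [e]⟩
    · exact ⟨a, m1, b, m2, e⟩

theorem decomp_four : Decomp (altTree 4) := by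
  have e1 : xorPerm (n := 4) 2 0 1 (by norm_num) (by norm_num) = swap 0 1 * swap 2 3 := by
    ext z; rw [xorPerm_val]; revert z; decide
  have e2 : xorPerm (n := 4) 2 0 2 (by norm_num) (by norm_num) = swap 0 2 * swap 1 3 := by
    ext z; rw [xorPerm_val]; revert z; decide
  refine decD_small (a := swap 0 1 * swap 2 3) (b := swap 0 2 * swap 1 3)
    (e1 ▸ xorPerm_mem_tree _ _) (e2 ▸ xorPerm_mem_tree _ _) (by decide) (by decide) (by decide)
    (by decide) (by decide) (by decide) (by decide) (by decide) ?_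
  intro σ h
  have := (h 1).1
  revert this
  clear h
  revert σ
  decide +kernel

theorem decomp_five : Decomp (altTree 5) := by
  have e1 : xorPerm (n := 5) 2 0 1 (by norm_num) (by norm_num) = swap 0 1 * swap 2 3 := by
    ext z; rw [xorPerm_val]; revert z; decide
  have e2 : xorPerm (n := 5) 2 0 2 (by norm_num) (by norm_num) = swap 0 2 * swap 1 3 := by
    ext z; rw [xorPerm_val]; revert z; decide
  refine decD_small (a := swap 0 1 * swap 2 3) (b := swap 0 2 * swap 1 3)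
    (e1 ▸ xorPerm_mem_tree _ _) (e2 ▸ xorPerm_mem_tree _ _) (by decide) (by decide) (by decide)
    (by decide) (by decide) (by decide) (by decide) (by decide) ?_
  intro σ h
  have := (h 1).1
  revert this
  clear h
  revert σ
  decide +kernel

theorem last_half (hn : n % 4 = 2 ∨ n % 4 = 3) {σ : Perm (Fin n)} (hσ : σ ∈ tree n) {z : Fin n}
    (hz : (z : ℕ) / 4 = n / 4) : (σ z : ℕ) / 2 = z / 2 := by
  have h1 := tree_last hσ 1 z
  have h2 := tree_last hσ 2 z
  have h3 := z.2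
  have h4 := (σ z).2
  norm_num at h1 h2
  omega

/-- even tree elements fixing a set -/
def fixSub (n : ℕ) (T : Fin n → Prop) : Subgroup (Perm (Fin n)) where
  carrier := {σ | σ ∈ tree n ∧ sign σ = 1 ∧ ∀ x, T x → σ x = x}
  one_mem' := ⟨one_mem _, map_one _, fun _ _ => rfl⟩
  mul_mem' := by
    rintro a b ⟨h1, h2, h3⟩ ⟨k1, k2, k3⟩
    exact ⟨mul_mem h1 k1, by rw [map_mul, h2, k2, mul_one], fun x hx => by
      rw [Perm.mul_apply, k3 x hx, h3 x hx]⟩
  inv_mem' := by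
    rintro a ⟨h1, h2, h3⟩
    exact ⟨inv_mem h1, by rw [map_inv, h2, inv_one], fun x hx => by
      rw [Perm.inv_eq_iff_eq, h3 x hx]⟩

theorem decomp_big (hn : 4 ≤ n) (h4 : n % 4 = 2 ∨ n % 4 = 3)
    (h : ∀ r : ℕ, 4 * (n / 4) ≠ 2 ^ r) : Decomp (altTree n) := by
  obtain ⟨K, l, hK, h1, h2⟩ := exists_split hn h
  rw [decomp_iff]
  have hl : 2 * (2 * (n / 4)) + 1 < n := by omega
  refine ⟨fixSub n (fun x => 4 * l ≤ (x : ℕ) ∧ (x : ℕ) / 4 < n / 4),
    fixSub n (fun x => (x : ℕ) < 4 * l), ?_, ?_, fun a ha => ⟨ha.1, ha.2.1⟩,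
    fun a ha => ⟨ha.1, ha.2.1⟩, ?_, ?_, ?_⟩
  · intro e
    have i0 : 2 * 0 + 1 < n := by omega
    have i1 : 2 * 1 + 1 < n := by omega
    have : tau n 0 * tau n 1 ∈ fixSub n (fun x => 4 * l ≤ (x : ℕ) ∧ (x : ℕ) / 4 < n / 4) :=
      ⟨mul_mem (tau_mem _) (tau_mem _), sign_tau2 i0 i1, fun x hx => by
        rw [tau2_fix i0 i1]; omega⟩
    rw [e, Subgroup.mem_bot] at this
    have k := (tau2_fix i0 i1 ⟨0, by omega⟩).1 (by rw [this]; rfl)
    simp at k
  · intro e
    have i0 : 2 * (2 * l) + 1 < n := by omega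
    have i1 : 2 * (2 * l + 1) + 1 < n := by omega
    have : tau n (2 * l) * tau n (2 * l + 1) ∈ fixSub n (fun x => (x : ℕ) < 4 * l) :=
      ⟨mul_mem (tau_mem _) (tau_mem _), sign_tau2 i0 i1, fun x hx => by
        rw [tau2_fix i0 i1]; omega⟩
    rw [e, Subgroup.mem_bot] at this
    have k := (tau2_fix i0 i1 ⟨4 * l, by omega⟩).1 (by rw [this]; rfl)
    simp only at k
    omega
  · rintro a ⟨a1, -, a3⟩ b ⟨b1, -, b3⟩
    ext1 z
    rw [Perm.mul_apply, Perm.mul_apply]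
    by_cases hz : (z : ℕ) < 4 * l
    · rw [b3 z hz, b3 _ ((tree_lt hK h1 h2 a1 z).2 hz)]
    · by_cases hz' : (z : ℕ) / 4 < n / 4
      · rw [a3 z ⟨by omega, hz'⟩, a3]
        have k1 := tree_lt hK h1 h2 b1 z
        have k2 := tree_last b1 2 z
        have k3 := (b z).2
        norm_num at k2
        omega
      · have z0 : (z : ℕ) / 4 = n / 4 := by have := z.2; omega
        have ha := last_half h4 a1 z0
        have hb := last_half h4 b1 z0
        have hab := last_half h4 a1 (z := b z) (by omega)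
        have hba := last_half h4 b1 (z := a z) (by omega)
        by_cases e : b z = z
        · rw [e, fix_of_half hba ha.symm e]
        · by_cases e' : a z = z
          · rw [e', fix_of_half hab hb.symm e']
          · have e3 : a z = b z := by
              simp only [Fin.ext_iff] at e e' ⊢; omega
            have n1 : a (b z) ≠ b z := fun k => e (a.injective (k.trans e3.symm))
            have n2 : b (a z) ≠ a z := fun k => e' (b.injective (k.trans e3))
            simp only [Ne, Fin.ext_iff] at e e' e3 n1 n2 ⊢; omega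
  · rintro a ⟨a1, a2, a3⟩ ⟨-, -, b3⟩
    have f : ∀ x : Fin n, (x : ℕ) / 4 ≠ n / 4 → a x = x := fun x hx => by
      by_cases hz : (x : ℕ) < 4 * l
      · exact b3 x hz
      · exact a3 x ⟨by omega, by have := x.2; omega⟩
    have E : InE a := fun x => by
      by_cases hx : (x : ℕ) / 4 = n / 4
      · exact last_half h4 a1 hx
      · rw [f x hx]
    have g : ∀ x : Fin n, (x : ℕ) / 2 ≠ 2 * (n / 4) → a x = x := fun x hx => by
      by_cases hx' : (x : ℕ) / 4 = n / 4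
      · have := E x
        have k1 := x.2
        have k2 := (a x).2
        rw [Fin.ext_iff]; omega
      · exact f x hx'
    by_contra ne
    have : a = tau n (2 * (n / 4)) := by
      obtain ⟨w, hw⟩ : ∃ w, a w ≠ w := by
        by_contra k; push Not at k; exact ne (Equiv.ext k)
      have hw' : (w : ℕ) / 2 = 2 * (n / 4) := by
        by_contra k; exact hw (g w k)
      ext1 z
      refine eq_of_half (E z) (tau_half _ z) ?_
      rw [tau_fix hl]
      refine ⟨fun k k' => hw ((E.fix_iff (k'.trans hw'.symm)).1 k), g z⟩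
    rw [this, sign_tau hl] at a2
    exact absurd a2 (by decide)
  · intro σ hσ hs
    have inv : ∀ x : Fin n, (σ x : ℕ) < 4 * l ↔ (x : ℕ) < 4 * l := tree_lt hK h1 h2 hσ
    let ρ : Perm (Fin n) := ofSubtype (σ.subtypePerm (p := fun x : Fin n => (x : ℕ) < 4 * l) inv)
    have r1 : ∀ x : Fin n, (x : ℕ) < 4 * l → ρ x = σ x := fun x hx =>
      ofSubtype_subtypePerm_of_mem inv hx
    have r2 : ∀ x : Fin n, ¬ (x : ℕ) < 4 * l → ρ x = x := fun x hx =>
      ofSubtype_subtypePerm_of_not_mem inv hx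
    have big : ∀ k : ℕ, ∀ x y : Fin n, (x : ℕ) < 4 * l → ¬ (y : ℕ) < 4 * l →
        (x : ℕ) / 2 ^ k = (y : ℕ) / 2 ^ k → ∀ z : Fin n, (z : ℕ) / 2 ^ k = 0 := by
      intro k x y hx hy e z
      have : K < k := by
        by_contra k'
        have := div_pow_mono (not_lt.1 k') e
        rw [hK, Nat.div_eq_of_lt hx, eq_comm, Nat.div_eq_zero_iff] at this
        omega
      have h3 : 2 ^ (K + 1) ≤ 2 ^ k := Nat.pow_le_pow_right (by norm_num) this
      rw [pow_succ, hK] at h3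
      exact Nat.div_eq_of_lt (by have := z.2; omega)
    have rt : ρ ∈ tree n := by
      intro k
      refine ⟨fun x y e => ?_, fun x e => ?_⟩
      · by_cases hx : (x : ℕ) < 4 * l <;> by_cases hy : (y : ℕ) < 4 * l
        · rw [r1 x hx, r1 y hy]; exact (tree_rel hσ k x y).2 e
        · rw [big k x y hx hy e, big k x y hx hy e]
        · rw [big k y x hy hx e.symm, big k y x hy hx e.symm]
        · rw [r2 x hx, r2 y hy, e]
      · by_cases hx : (x : ℕ) < 4 * l
        · rw [r1 x hx]; exact (tree_last hσ k x).2 e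
        · rw [r2 x hx, e]
    obtain ⟨a, a1, a2, a3⟩ : ∃ a ∈ tree n, sign a = 1 ∧
        ∀ x : Fin n, (x : ℕ) / 4 < n / 4 → a x = ρ x := by
      rcases Int.units_eq_one_or (sign ρ) with e | e
      · exact ⟨ρ, rt, e, fun _ _ => rfl⟩
      · refine ⟨ρ * tau n (2 * (n / 4)), mul_mem rt (tau_mem _), ?_, fun x hx => ?_⟩
        · rw [map_mul, e, sign_tau hl]; decide
        · rw [Perm.mul_apply, (tau_fix hl x).2 (by omega)]
    refine ⟨a, ⟨a1, a2, fun x hx => ?_⟩, a⁻¹ * σ, ⟨mul_mem (inv_mem a1) hσ, ?_, fun x hx => ?_⟩,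
      by group⟩
    · rw [a3 x hx.2, r2 x (by omega)]
    · rw [map_mul, map_inv, a2, hs]; rfl
    · rw [Perm.mul_apply, Perm.inv_eq_iff_eq, a3 x (by omega), r1 x hx]

theorem decomp_sylow_iff (hn : 4 ≤ n) (P : Sylow 2 (alternatingGroup (Fin n))) :
    Decomp (P : Subgroup (alternatingGroup (Fin n))) ↔
      (n = 4 ∨ n = 5 ∨ ((n % 4 = 2 ∨ n % 4 = 3) ∧ ∀ r : ℕ, 4 * (n / 4) ≠ 2 ^ r)) := by
  obtain ⟨R, hR⟩ := exists_sylow_altTree n
  have : Decomp (P : Subgroup (alternatingGroup (Fin n))) ↔ Decomp (altTree n) := by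
    rw [← hR]; exact ⟨decomp_sylow P R, decomp_sylow R P⟩
  rw [this]
  constructor
  · intro h
    by_contra k
    rw [not_or, not_or] at k
    exact not_decomp (by omega) k.2.2 h
  · rintro (rfl | rfl | ⟨h1, h2⟩)
    · exact decomp_four
    · exact decomp_five
    · exact decomp_big hn h1 h2

end Cfsg.Agent.PermB
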