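import Mathlib

/-! Arithmetic for nilpotent permutation groups. -/

set_option autoImplicit false

open Nat

namespace Cfsg.Agent.PermB

/-- 2-adic valuation of the factorial -/
def vv (k : ℕ) : ℕ := (k !).factorization 2

theorem vv_succ (k : ℕ) : vv (k + 1) = vv k + (k + 1).factorization 2 := by
  rw [vv, factorial_succ, Nat.factorization_mul (by omega) (factorial_ne_zero k)]
  simp [vv, add_comm]

theorem vv_add (a b : ℕ) : vv a + vv b ≤ vv (a + b) := by
  have h := (factorization_le_iff_dvd (mul_ne_zero (factorial_ne_zero a) (factorial_ne_zero b))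
    (factorial_ne_zero (a + b))).2 (factorial_mul_factorial_dvd_factorial_add a b) 2
  rwa [Nat.factorization_mul (factorial_ne_zero a) (factorial_ne_zero b)] at h

theorem vv_mono {a b : ℕ} (h : a ≤ b) : vv a ≤ vv b := by
  obtain ⟨c, rfl⟩ := Nat.exists_eq_add_of_le h
  have := vv_add a c; omega

theorem vv_small {k : ℕ} (hk : k < 32) : vv k = k / 2 + k / 4 + k / 8 + k / 16 := by
  rw [vv, factorization_factorial prime_two (b := 5)
    (Nat.log_lt_of_lt_pow' (by decide) (by omega))]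
  simp [Finset.sum_Ico_succ_top]

theorem fact2_odd {k : ℕ} (h : k % 2 = 1) : k.factorization 2 = 0 :=
  factorization_eq_zero_of_not_dvd (by omega)

theorem fact2_ge {k j : ℕ} (h0 : k ≠ 0) (h : 2 ^ j ∣ k) : j ≤ k.factorization 2 :=
  (prime_two.pow_dvd_iff_le_factorization h0).1 h

theorem fact2_two {k : ℕ} (h : k % 4 = 2) : k.factorization 2 = 1 := by
  have h1 := fact2_ge (k := k) (j := 1) (by omega) (by omega)
  by_contra h2
  have := (prime_two.pow_dvd_iff_le_factorization (n := k) (k := 2) (by omega)).2 (by omega)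
  omega

theorem vv_three {n : ℕ} (h : n % 4 = 3) : vv n = vv (n - 3) + 1 := by
  obtain ⟨m, rfl⟩ : ∃ m, n = m + 3 := ⟨n - 3, by omega⟩
  rw [vv_succ (m + 2), vv_succ (m + 1), vv_succ, fact2_odd (k := m + 1) (by omega),
    fact2_two (k := m + 1 + 1) (by omega), fact2_odd (k := m + 2 + 1) (by omega)]
  simp

theorem vv_not_three {n : ℕ} (h3 : 3 ≤ n) (h : n % 4 ≠ 3) : vv (n - 3) + 2 ≤ vv n := by
  obtain ⟨m, rfl⟩ : ∃ m, n = m + 3 := ⟨n - 3, by omega⟩
  rw [vv_succ (m + 2), vv_succ (m + 1), vv_succ, Nat.add_sub_cancel]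
  have : m % 4 = 1 ∨ m % 4 = 2 ∨ m % 4 = 3 := by omega
  rcases this with h | h | h
  · have := fact2_ge (k := m + 2 + 1) (j := 2) (by omega) (by omega); omega
  · have := fact2_ge (k := m + 1 + 1) (j := 2) (by omega) (by omega); omega
  · have := fact2_ge (k := m + 1) (j := 2) (by omega) (by omega); omega

theorem vv_big {m : ℕ} (h : 16 ≤ m) : 4 * 3 ^ (m - 1) ≤ 4 ^ vv m := by
  induction m using Nat.strong_induction_on with
  | _ m ih =>
    rcases Nat.lt_or_ge m 24 with h1 | h1
    · rw [vv_small (by omega)]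
      interval_cases m <;> norm_num
    · obtain ⟨k, rfl⟩ : ∃ k, m = k + 8 := ⟨m - 8, by omega⟩
      have h2 := ih k (by omega) (by omega)
      have h3 := vv_add k 8
      rw [vv_small (k := 8) (by decide)] at h3
      have h4 : 4 ^ (vv k + 7) ≤ 4 ^ vv (k + 8) := Nat.pow_le_pow_right (by decide) h3
      rw [show k + 8 - 1 = k - 1 + 8 by omega, pow_add]
      rw [pow_add] at h4
      omega

/-- the bound for a transitive nilpotent group of degree `m` and order `I` -/
def TB (m I : ℕ) : Prop :=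
  I ≠ 0 ∧ ∀ p, p.Prime → (p - 1) * I.factorization p ≤ p ^ m.factorization p - 1

theorem sum_pred_le {ι : Type*} (S : Finset ι) (x : ι → ℕ) (h : ∀ i ∈ S, 1 ≤ x i) :
    ∑ i ∈ S, (x i - 1) + 1 ≤ ∏ i ∈ S, x i := by
  classical
  induction S using Finset.induction_on with
  | empty => simp
  | insert a S ha ih =>
    rw [Finset.sum_insert ha, Finset.prod_insert ha]
    have h1 := ih fun i hi => h i (Finset.mem_insert_of_mem hi)
    have h2 := h a (Finset.mem_insert_self _ _)
    obtain ⟨y, hy⟩ := Nat.exists_eq_add_of_le' h2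
    rw [hy, Nat.add_sub_cancel]
    have : y * 1 ≤ y * ∏ i ∈ S, x i := Nat.mul_le_mul_left _ (by omega)
    rw [add_mul]; omega

theorem sq_le_three_pow {p : ℕ} (h : 3 ≤ p) : p ^ 2 ≤ 3 ^ (p - 1) := by
  induction p, h using Nat.le_induction with
  | base => norm_num
  | succ p hp ih =>
    obtain ⟨k, rfl⟩ := Nat.exists_eq_add_of_le' hp
    rw [show k + 3 + 1 - 1 = (k + 3 - 1) + 1 by omega, pow_succ 3]
    nlinarith

theorem TB.sq_le {m I : ℕ} (h : TB m I) (hm : m ≠ 0) (h2 : ∀ j, m ≠ 2 ^ j) :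
    I ^ 2 ≤ 3 ^ (m - 1) := by
  obtain ⟨hI, h⟩ := h
  set a := 2 ^ m.factorization 2 with ha
  set b := m / a with hb
  have hab : a * b = m := ordProj_mul_ordCompl_eq_self m 2
  have hb0 : b ≠ 0 := by rintro e; rw [e] at hab; omega
  have hb1 : b ≠ 1 := by rintro e; rw [e, mul_one] at hab; exact h2 _ hab.symm
  have hb2 : ¬ 2 ∣ b := not_dvd_ordCompl prime_two hm
  have ha1 : 1 ≤ a := Nat.one_le_two_pow
  clear_value b
  clear hb
  let S := I.primeFactors.erase 2
  have hS : ∀ p ∈ S, p.Prime ∧ p ≠ 2 := fun p hp =>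
    ⟨prime_of_mem_primeFactors (Finset.mem_of_mem_erase hp), Finset.ne_of_mem_erase hp⟩
  have e1 : I = 2 ^ I.factorization 2 * ∏ p ∈ S, p ^ I.factorization p := by
    conv_lhs => rw [← prod_factorization_pow_eq_self hI]
    rw [Finsupp.prod, support_factorization]
    by_cases h2I : 2 ∈ I.primeFactors
    · rw [Finset.mul_prod_erase _ (fun p => p ^ I.factorization p) h2I]
    · rw [show S = I.primeFactors from Finset.erase_eq_of_notMem h2I, Finsupp.notMem_support_iff.1
        (by rwa [support_factorization]), pow_zero, one_mul]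
  have e2 : (∏ p ∈ S, p ^ I.factorization p) ^ 2 ≤ 3 ^ (b - 1) := by
    rw [← Finset.prod_pow]
    calc _ ≤ ∏ p ∈ S, 3 ^ (p ^ m.factorization p - 1) := by
          refine Finset.prod_le_prod' fun p hp => ?_
          obtain ⟨hp1, hp2⟩ := hS p hp
          have := hp1.two_le
          rw [← pow_mul, mul_comm, pow_mul]
          refine (Nat.pow_le_pow_left (sq_le_three_pow (by omega)) _).trans ?_
          rw [← pow_mul]
          exact Nat.pow_le_pow_right (by decide) (h p hp1)
      _ = 3 ^ ∑ p ∈ S, (p ^ m.factorization p - 1) := Finset.prod_pow_eq_pow_sum _ _ _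
      _ ≤ _ := by
          refine Nat.pow_le_pow_right (by decide) ?_
          have k1 := sum_pred_le S (fun p => p ^ m.factorization p)
            fun p hp => Nat.one_le_pow _ _ (hS p hp).1.pos
          have k2 : ∏ p ∈ S, p ^ m.factorization p ∣ b := by
            refine Finset.prod_dvd_of_isRelPrime (fun p hp q hq hpq => ?_) fun p hp => ?_
            · exact Nat.coprime_iff_isRelPrime.1
                (Nat.Coprime.pow _ _ ((coprime_primes (hS p hp).1 (hS q hq).1).2 hpq))
            · refine Nat.Coprime.dvd_of_dvd_mul_left (m := a) ?_ (hab ▸ ordProj_dvd m p)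
              exact Nat.Coprime.pow _ _ ((coprime_primes (hS p hp).1 prime_two).2 (hS p hp).2)
          have := Nat.le_of_dvd (by omega) k2
          omega
  have e3 : (2 ^ I.factorization 2) ^ 2 ≤ 3 ^ (b * (a - 1)) := by
    have k1 : I.factorization 2 ≤ a - 1 := by simpa using h 2 prime_two
    rw [← pow_mul]
    calc _ ≤ 3 ^ (I.factorization 2 * 2) := Nat.pow_le_pow_left (by decide) _
      _ ≤ _ := Nat.pow_le_pow_right (by decide) (by
          have : 2 ≤ b := by omega
          nlinarith)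
  rw [e1, mul_pow]
  refine (Nat.mul_le_mul e3 e2).trans ?_
  rw [← pow_add]
  refine Nat.pow_le_pow_right (by decide) ?_
  obtain ⟨a', ha'⟩ := Nat.exists_eq_add_of_le' ha1
  rw [← hab, ha', Nat.add_sub_cancel]
  have : (a' + 1) * b = b * a' + b := by ring
  omega

theorem TB.le_of_squarefree {m I : ℕ} (h : TB m I) (hm : Squarefree m) : I ≤ m := by
  obtain ⟨hI, h⟩ := h
  refine Nat.le_of_dvd (Nat.pos_of_ne_zero hm.ne_zero)
    ((factorization_prime_le_iff_dvd hI hm.ne_zero).1 fun p hp => ?_)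
  have h1 := h p hp
  have h2 := hm.natFactorization_le_one p
  have h3 := hp.two_le
  rcases Nat.le_one_iff_eq_zero_or_eq_one.1 h2 with e | e
  · rw [e] at h1 ⊢
    simp only [pow_zero, tsub_self, nonpos_iff_eq_zero, mul_eq_zero] at h1 ⊢
    omega
  · rw [e] at h1 ⊢
    rw [pow_one] at h1
    exact Nat.le_of_mul_le_mul_left (by rwa [mul_one]) (by omega : 0 < p - 1)

/-- the bound for nilpotent groups all of whose orbits have length not a power of two -/
def HB (m I : ℕ) : Prop :=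
  (m = 0 ∧ I = 1) ∨ (3 ≤ m ∧ m ≠ 4 ∧ I ^ 2 ≤ 3 ^ (m - 1) ∧
    (Squarefree m → I ≤ m ∨ (I ^ 2 ≤ 3 ^ (m - 2) ∧ m ≠ 7 ∧ 6 ≤ m)))

theorem HB.step {a J s K I : ℕ} (h : TB a J) (ha : a ≠ 0) (h2 : ∀ j, a ≠ 2 ^ j) (hs : HB s K)
    (hI : I ≤ J * K) : HB (a + s) I := by
  have a1 := h2 0
  have a2 := h2 1
  have a4 := h2 2
  have k1 := h.sq_le ha h2
  right
  rcases hs with ⟨rfl, rfl⟩ | ⟨s3, s4, k2, -⟩
  · rw [mul_one] at hI
    exact ⟨by omega, by omega, (Nat.pow_le_pow_left hI 2).trans k1,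
      fun hsq => Or.inl (hI.trans (h.le_of_squarefree hsq))⟩
  · have : I ^ 2 ≤ 3 ^ (a + s - 2) := by
      refine (Nat.pow_le_pow_left hI 2).trans ?_
      rw [mul_pow, show a + s - 2 = (a - 1) + (s - 1) by omega, pow_add]
      exact Nat.mul_le_mul k1 k2
    exact ⟨by omega, by omega, this.trans (Nat.pow_le_pow_right (by decide) (by omega)),
      fun _ => Or.inr ⟨this, by omega, by omega⟩⟩

theorem HB.three {I : ℕ} (h : HB 3 I) : I ≤ 3 := by
  rcases h with ⟨h, -⟩ | ⟨-, -, h, -⟩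
  · omega
  · norm_num at h; nlinarith

theorem le_of_sq_le {I c d : ℕ} (h : I ^ 2 ≤ c) (h2 : c < (d + 1) ^ 2) : I ≤ d := by
  by_contra h3
  have := Nat.pow_le_pow_left (show d + 1 ≤ I by omega) 2
  omega

/-- explicit bound for small degrees -/
def hbT : ℕ → ℕ
  | 3 => 3 | 5 => 5 | 6 => 9 | 7 => 7 | 8 => 46 | 9 => 81 | 10 => 81 | 11 => 140 | 12 => 420
  | 13 => 420 | 14 => 729 | 15 => 1262 | _ => 1

theorem HB.small {m I : ℕ} (h : HB m I) (hm : m < 16) : I ≤ hbT m ∧ m ≠ 1 ∧ m ≠ 2 ∧ m ≠ 4 := by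
  rcases h with ⟨rfl, rfl⟩ | ⟨h3, h4, h1, h2⟩
  · decide
  refine ⟨?_, by omega, by omega, h4⟩
  have sq : ∀ k ∈ [5, 6, 7, 10, 11, 13, 14, 15], Squarefree k := by decide +kernel
  interval_cases m
  all_goals first
    | exact le_of_sq_le h1 (by decide)
    | exact absurd rfl h4
    | (rcases h2 (sq _ (by decide)) with h | ⟨h, h7, h6⟩
       · exact h.trans (by decide)
       · first | exact le_of_sq_le h (by decide) | omega)

theorem HB.big {m I : ℕ} (h : HB m I) (hm : 16 ≤ m) : 2 * I ≤ 2 ^ vv m := by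
  rcases h with ⟨rfl, rfl⟩ | ⟨h3, h4, h1, h2⟩
  · omega
  have := vv_big hm
  apply le_of_sq_le (c := 4 ^ vv m) (by nlinarith)
  have : 4 ^ vv m = (2 ^ vv m) ^ 2 := by rw [← pow_mul, mul_comm, pow_mul]; norm_num
  rw [this]
  exact Nat.pow_lt_pow_left (Nat.lt_succ_self _) (by decide)

theorem HB.le_S {m I : ℕ} (h : HB m I) (h3 : m ≠ 3) : I ≤ 2 ^ vv m := by
  rcases Nat.lt_or_ge m 16 with hm | hm
  · obtain ⟨k, k1, k2, k4⟩ := h.small hm
    refine k.trans ?_
    rw [vv_small (by omega)]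
    interval_cases m <;> first | decide | omega
  · have := h.big hm; omega

theorem HB.le_A {m n I : ℕ} (h : HB m I) (h1 : m ≤ n) (h2 : n ≤ m + 1) (hn : n % 4 ≠ 3)
    (h5 : n ≠ 5) (h6 : n ≠ 6) (h9 : n ≠ 9) : I ≤ 2 ^ (vv n - 1) := by
  rcases Nat.lt_or_ge m 16 with hm | hm
  · obtain ⟨k, k1, k2, k4⟩ := h.small hm
    refine k.trans ?_
    rw [vv_small (by omega)]
    interval_cases m <;> interval_cases n <;> first | decide | omega
  · have k1 := h.big hm
    have k2 := vv_mono h1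
    have k3 := vv_mono hm
    rw [vv_small (by decide)] at k3
    have k4 : 2 ^ vv m ≤ 2 ^ (vv n - 1 + 1) := Nat.pow_le_pow_right (by decide) (by omega)
    rw [pow_succ] at k4
    omega

theorem HB.lt_A {m n I : ℕ} (h : HB m I) (h1 : m ≤ n) (h2 : n ≤ m + 1) (hn : n % 4 = 3)
    (h7 : 7 ≤ n) : I < 3 * 2 ^ (vv (n - 3) - 1) := by
  rcases Nat.lt_or_ge m 16 with hm | hm
  · obtain ⟨k, k1, k2, k4⟩ := h.small hm
    refine k.trans_lt ?_
    rw [vv_small (by omega)]
    interval_cases m <;> interval_cases n <;> first | decide | omega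
  · have k1 := h.big hm
    have k2 := vv_mono h1
    have k3 := vv_mono hm
    rw [vv_small (by decide)] at k3
    have k5 := vv_three hn
    have k4 : 2 ^ vv m ≤ 2 ^ (vv (n - 3) - 1 + 2) := Nat.pow_le_pow_right (by decide) (by omega)
    rw [pow_add] at k4
    have : 0 < 2 ^ (vv (n - 3) - 1) := by positivity
    omega

end Cfsg.Agent.PermB
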