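import Cfsg.Agent.PermB.NArith
import Cfsg.Agent.PermB.Prod

/-! Nilpotent permutation groups. -/

set_option autoImplicit false

open Equiv MulAction
open scoped Nat

namespace Cfsg.Agent.PermB

section act
variable {G Ω : Type*} [Group G] [MulAction G Ω]

/-- invariant subsets -/
def InvS (G : Type*) [Group G] [MulAction G Ω] (S : Set Ω) : Prop :=
  ∀ (g : G) (x : Ω), g • x ∈ S ↔ x ∈ S

/-- action on an invariant subset -/
def resH {S : Set Ω} (h : InvS G S) : G →* Perm {x // x ∈ S} where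
  toFun g := (MulAction.toPerm g).subtypePerm (h g)
  map_one' := by ext x; exact one_smul G x.1
  map_mul' a b := by ext x; exact mul_smul a b x.1

theorem resH_ker {S : Set Ω} (h : InvS G S) : (resH h).ker = fixingSubgroup G S := by
  ext g
  rw [MonoidHom.mem_ker, mem_fixingSubgroup_iff]
  constructor
  · intro e y hy
    exact congrArg Subtype.val (congrArg (fun σ : Perm {x // x ∈ S} => σ ⟨y, hy⟩) e)
  · intro e; ext ⟨y, hy⟩; exact e y hy

theorem InvS.normal {S : Set Ω} (h : InvS G S) : (fixingSubgroup G S).Normal :=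
  resH_ker h ▸ inferInstance

theorem InvS.index_eq {S : Set Ω} (h : InvS G S) :
    (fixingSubgroup G S).index = Nat.card (resH h).range := by
  rw [← resH_ker h, Subgroup.index_ker]

theorem InvS.index_dvd [Finite Ω] {S : Set Ω} (h : InvS G S) :
    (fixingSubgroup G S).index ∣ (Nat.card S)! := by
  classical
  rw [h.index_eq, ← Nat.card_perm]
  exact Subgroup.card_subgroup_dvd_card _

theorem invS_orbit (x : Ω) : InvS G (orbit G x) := fun g y => by
  rw [← orbitRel_apply, ← orbitRel_apply]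
  have : orbitRel G Ω (g • y) y := mem_orbit y g
  exact ⟨fun h => (orbitRel G Ω).trans ((orbitRel G Ω).symm this) h,
    fun h => (orbitRel G Ω).trans this h⟩

theorem InvS.diff {S T : Set Ω} (h : InvS G S) (h' : InvS G T) : InvS G (S \ T) := fun g y => by
  simp only [Set.mem_sdiff, h g, h' g]

theorem InvS.compl {S : Set Ω} (h : InvS G S) : InvS G Sᶜ := fun g y => by
  simp only [Set.mem_compl_iff, h g]

variable [Finite G]

theorem relIndex_dvd_index_of_normal' (S P : Subgroup G) [P.Normal] :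
    S.relIndex P ∣ S.index := by
  obtain ⟨r, hr⟩ := Subgroup.relIndex_dvd_index_of_normal P S
  have e1 := Subgroup.relIndex_mul_index (inf_le_right : S ⊓ P ≤ P)
  have e2 := Subgroup.relIndex_mul_index (inf_le_left : S ⊓ P ≤ S)
  rw [Subgroup.inf_relIndex_right] at e1
  rw [Subgroup.inf_relIndex_left, ← e1, hr] at e2
  have h0 : P.relIndex S ≠ 0 := Subgroup.index_ne_zero_of_finite
  refine ⟨r, Nat.eq_of_mul_eq_mul_left (Nat.pos_of_ne_zero h0) ?_⟩
  rw [e2]; ring

theorem factorization_index_le (K : Subgroup G) {p : ℕ} [hp : Fact p.Prime] (P : Sylow p G) :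
    K.index.factorization p ≤ (K.relIndex P).factorization p := by
  have e1 := Subgroup.relIndex_mul_index (inf_le_right : K ⊓ P ≤ P)
  rw [Subgroup.inf_relIndex_right] at e1
  have e2 := Subgroup.index_dvd_of_le (inf_le_left : K ⊓ P ≤ K)
  have h0 : K.relIndex P ≠ 0 := Subgroup.index_ne_zero_of_finite
  have h1 : (P : Subgroup G).index ≠ 0 := Subgroup.index_ne_zero_of_finite
  have := (Nat.factorization_le_iff_dvd Subgroup.index_ne_zero_of_finite
    Subgroup.index_ne_zero_of_finite).2 e2 p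
  rwa [← e1, Nat.factorization_mul h0 h1, Finsupp.add_apply,
    Nat.factorization_eq_zero_of_not_dvd P.not_dvd_index, add_zero] at this

theorem sylow_commute [Group.IsNilpotent G] {p q : ℕ} [Fact p.Prime] [Fact q.Prime] (h : p ≠ q)
    (P : Sylow p G) (Q : Sylow q G) {x y : G} (hx : x ∈ P) (hy : y ∈ Q) : Commute x y :=
  Subgroup.commute_of_normal_of_disjoint (P : Subgroup G) Q inferInstance inferInstance
    (IsPGroup.disjoint_of_ne p q h _ _ P.isPGroup' Q.isPGroup') x y hx hy

theorem exists_cent_mul [Group.IsNilpotent G] {p : ℕ} [Fact p.Prime] (P : Sylow p G) (g : G) :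
    ∃ c ∈ Subgroup.centralizer (P : Set G), ∃ u ∈ P, c * u = g := by
  have : Subgroup.centralizer (P : Set G) ⊔ (P : Subgroup G) = ⊤ := by
    rw [← Subgroup.index_eq_one, Nat.eq_one_iff_not_exists_prime_dvd]
    intro q hq hd
    have : Fact q.Prime := ⟨hq⟩
    by_cases hpq : p = q
    · subst hpq
      exact P.not_dvd_index (hd.trans (Subgroup.index_dvd_of_le le_sup_right))
    · obtain ⟨Q⟩ : Nonempty (Sylow q G) := inferInstance
      refine Q.not_dvd_index (hd.trans (Subgroup.index_dvd_of_le (le_trans ?_ le_sup_left)))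
      intro y hy x hx
      exact sylow_commute hpq P Q hx hy
  have hg : g ∈ Subgroup.centralizer (P : Set G) ⊔ (P : Subgroup G) := this ▸ Subgroup.mem_top g
  rw [← SetLike.mem_coe, Subgroup.mul_normal] at hg
  obtain ⟨c, hc, u, hu, e⟩ := hg
  exact ⟨c, hc, u, hu, e⟩

theorem card_orbit_sylow {p : ℕ} [hp : Fact p.Prime] (P : Sylow p G) [(P : Subgroup G).Normal]
    (x : Ω) : ∃ j, Nat.card (orbit (P : Subgroup G) x) = p ^ j ∧
      p ^ j ∣ Nat.card (orbit G x) := by
  have e : Nat.card (orbit (P : Subgroup G) x) = (stabilizer G x).relIndex P := by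
    rw [Nat.card_coe_set_eq, ← index_stabilizer, Subgroup.relIndex]; rfl
  obtain ⟨j, hj⟩ := P.isPGroup'.index ((stabilizer G x).subgroupOf P)
  refine ⟨j, e.trans hj, ?_⟩
  rw [← hj, Nat.card_coe_set_eq, ← index_stabilizer]
  exact relIndex_dvd_index_of_normal' _ _

variable [Finite Ω]

theorem card_orbit_ne (x : Ω) : Nat.card (orbit G x) ≠ 0 :=
  haveI : Nonempty (orbit G x) := ⟨⟨x, mem_orbit_self x⟩⟩
  Nat.card_pos.ne'

theorem tb_orbit [Group.IsNilpotent G] (x : Ω) :
    TB (Nat.card (orbit G x)) (fixingSubgroup G (orbit G x)).index := by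
  refine ⟨Subgroup.index_ne_zero_of_finite, fun p hp => ?_⟩
  have : Fact p.Prime := ⟨hp⟩
  obtain ⟨P⟩ : Nonempty (Sylow p G) := inferInstance
  obtain ⟨j, h1, h2⟩ := card_orbit_sylow P x
  have h3 := factorization_index_le (fixingSubgroup G (orbit G x)) P
  have h4 : (fixingSubgroup G (orbit G x)).subgroupOf P =
      fixingSubgroup (P : Subgroup G) (orbit (P : Subgroup G) x) := by
    ext k
    rw [Subgroup.mem_subgroupOf, mem_fixingSubgroup_iff, mem_fixingSubgroup_iff]
    constructor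
    · intro h y hy; exact h y (mem_orbit_of_mem_orbit_subgroup hy)
    · rintro h _ ⟨g, rfl⟩
      obtain ⟨c, hc, u, hu, rfl⟩ := exists_cent_mul P g
      have := h _ (mem_orbit x (⟨u, hu⟩ : (P : Subgroup G)))
      change (k : G) • u • x = u • x at this
      simp only
      rw [mul_smul, ← mul_smul, hc k k.2, mul_smul, this]
  have h5 := (invS_orbit (G := (P : Subgroup G)) x).index_dvd
  rw [← h4, h1] at h5
  have h6 := (Nat.factorization_le_iff_dvd Subgroup.index_ne_zero_of_finite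
    (Nat.factorial_ne_zero _)).2 h5 p
  have h7 := sub_one_mul_padicValNat_factorial_lt_of_ne_zero p (pow_ne_zero j hp.ne_zero)
  rw [← Nat.factorization_def _ hp] at h7
  have h0 : Nat.card (orbit G x) ≠ 0 := card_orbit_ne x
  have h8 := Nat.pow_le_pow_right hp.pos ((hp.pow_dvd_iff_le_factorization h0).1 h2)
  have h9 := Nat.mul_le_mul_left (p - 1) (h3.trans h6)
  omega

theorem hb_inv [Group.IsNilpotent G] (m : ℕ) : ∀ (S : Set Ω), InvS G S → Nat.card S = m →
    (∀ x ∈ S, ∀ j, Nat.card (orbit G x) ≠ 2 ^ j) → HB m (fixingSubgroup G S).index := by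
  induction m using Nat.strong_induction_on with
  | _ m ih =>
    intro S hS hm h
    rcases S.eq_empty_or_nonempty with rfl | ⟨x, hx⟩
    · left; simp [← hm]
    have hO : orbit G x ⊆ S := by rintro _ ⟨g, rfl⟩; exact (hS g x).2 hx
    have h0 : Nat.card (orbit G x) ≠ 0 := card_orbit_ne x
    have hc : Nat.card (orbit G x) + Nat.card ↥(S \ orbit G x) = m := by
      rw [← hm, Nat.card_coe_set_eq, Nat.card_coe_set_eq, Nat.card_coe_set_eq, add_comm,
        Set.ncard_sdiff_add_ncard_of_subset hO]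
    rw [← hc]
    refine HB.step (tb_orbit x) h0 (h x hx) (ih _ (by omega) _ (hS.diff (invS_orbit x)) rfl
      fun y hy => h y hy.1) ?_
    conv_lhs => rw [← Set.union_sdiff_cancel hO, fixingSubgroup_union]
    exact Subgroup.index_inf_le

/-- points whose orbit has 2-power length -/
def twoPts (G Ω : Type*) [Group G] [MulAction G Ω] : Set Ω :=
  {x | ∃ j, Nat.card (orbit G x) = 2 ^ j}

theorem invS_twoPts : InvS G (twoPts G Ω) := fun g x => by
  simp only [twoPts, Set.mem_ofPred_eq, orbit_smul]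

theorem isPGroup_twoPts [Group.IsNilpotent G] :
    IsPGroup 2 (resH (invS_twoPts (G := G) (Ω := Ω))).range := by
  rw [IsPGroup.iff_card, ← InvS.index_eq]
  refine ⟨_, Nat.eq_prime_pow_of_unique_prime_dvd Subgroup.index_ne_zero_of_finite ?_⟩
  intro q hq hd
  by_contra h2
  have : Fact q.Prime := ⟨hq⟩
  obtain ⟨Q⟩ : Nonempty (Sylow q G) := inferInstance
  refine Q.not_dvd_index (hd.trans (Subgroup.index_dvd_of_le fun g hg => ?_))
  rw [mem_fixingSubgroup_iff]
  rintro y ⟨i, hi⟩
  obtain ⟨j, h1, h3⟩ := card_orbit_sylow Q y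
  rw [hi] at h3
  have h4 := Nat.Coprime.eq_one_of_dvd
    (Nat.Coprime.pow j i ((Nat.coprime_primes hq Nat.prime_two).2 h2)) h3
  rw [h4, Nat.card_eq_one_iff_unique] at h1
  exact congrArg Subtype.val (h1.1.elim ⟨_, mem_orbit y (⟨g, hg⟩ : (Q : Subgroup G))⟩
    ⟨y, mem_orbit_self y⟩)

theorem hb_twoPts [Group.IsNilpotent G] :
    HB (Nat.card ↥(twoPts G Ω)ᶜ) (fixingSubgroup G (twoPts G Ω)ᶜ).index :=
  hb_inv _ _ invS_twoPts.compl rfl fun _ hx j e => hx ⟨j, e⟩

end act

theorem card_sylow_perm {X : Type*} [Finite X] (R : Sylow 2 (Perm X)) :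
    Nat.card R = 2 ^ vv (Nat.card X) := by
  classical
  rw [R.card_eq_multiplicity, Nat.card_perm, vv]

theorem card_sylow_alt {X : Type*} [Fintype X] [DecidableEq X]
    (R : Sylow 2 (alternatingGroup X)) : Nat.card R = 2 ^ (vv (Nat.card X) - 1) := by
  rw [R.card_eq_multiplicity]
  congr 1
  rcases subsingleton_or_nontrivial X with h | h
  · have h1 : Nat.card (alternatingGroup X) = 1 := Nat.card_unique
    have h2 : Nat.card X ≤ 1 := Finite.card_le_one_iff_subsingleton.2 h
    rw [h1, vv_small (by omega), Nat.factorization_one, Finsupp.zero_apply]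
    omega
  · have := two_mul_nat_card_alternatingGroup (α := X)
    rw [vv, ← Nat.card_perm, ← this, Nat.factorization_mul (by decide) Nat.card_pos.ne']
    simp [Nat.prime_two.factorization_self]

section perm
variable {Ω : Type*} [Fintype Ω] [DecidableEq Ω] (N : Subgroup (Perm Ω)) [Group.IsNilpotent N]

theorem nil_struct : ∃ f m I : ℕ, f + m = Fintype.card Ω ∧ HB m I ∧
    Nat.card N ≤ 2 ^ vv f * I ∧
    (N ≤ alternatingGroup Ω → 2 ≤ f → 2 * Nat.card N ≤ 2 ^ vv f * I) ∧
    (∀ c ∈ N, orderOf c = 3 → c.support.card ≤ m) := by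
  classical
  let hF : InvS N (twoPts N Ω) := invS_twoPts
  obtain ⟨R, hR⟩ := (isPGroup_twoPts (G := N) (Ω := Ω)).exists_le_sylow
  let ρ : N →* R × (resH hF.compl).range :=
    ((resH hF).codRestrict _ fun g => hR ⟨g, rfl⟩).prod (resH hF.compl).rangeRestrict
  have hρ : Function.Injective ρ := by
    rw [injective_iff_map_eq_one]
    intro g hg
    have h1 : g ∈ (resH hF).ker := congrArg Subtype.val (congrArg Prod.fst hg)
    have h2 : g ∈ (resH hF.compl).ker := congrArg Subtype.val (congrArg Prod.snd hg)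
    rw [resH_ker, mem_fixingSubgroup_iff] at h1 h2
    ext x
    by_cases hx : x ∈ twoPts N Ω
    · exact h1 x hx
    · exact h2 x hx
  have hc : Nat.card (R × (resH hF.compl).range) =
      2 ^ vv (Nat.card (twoPts N Ω)) * (fixingSubgroup N (twoPts N Ω)ᶜ).index := by
    rw [Nat.card_prod, card_sylow_perm, hF.compl.index_eq]
  refine ⟨Nat.card (twoPts N Ω), Nat.card ↥(twoPts N Ω)ᶜ, _, ?_, hb_twoPts, ?_, ?_, ?_⟩
  · rw [Nat.card_coe_set_eq, Nat.card_coe_set_eq, Set.ncard_add_ncard_compl,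
      Nat.card_eq_fintype_card]
  · rw [← hc]; exact Nat.card_le_card_of_injective ρ hρ
  · intro hA h2
    let ψ : R × (resH hF.compl).range →* ℤˣ :=
      ((Perm.sign (α := {x // x ∈ twoPts N Ω})).comp
        (R : Subgroup (Perm {x // x ∈ twoPts N Ω})).subtype).coprod
        ((Perm.sign (α := {x // x ∈ (twoPts N Ω)ᶜ})).comp (resH hF.compl).range.subtype)
    have hle : ρ.range ≤ ψ.ker := by
      rintro _ ⟨g, rfl⟩
      rw [MonoidHom.mem_ker]
      change Perm.sign (resH hF g) * Perm.sign (resH hF.compl g) = 1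
      have e : (g : Perm Ω) = Perm.subtypeCongr (resH hF g) (resH hF.compl g) := by
        ext x
        by_cases hx : x ∈ twoPts N Ω
        · rw [Perm.subtypeCongr.left_apply _ _ hx]; rfl
        · rw [Perm.subtypeCongr.right_apply _ _ hx]; rfl
      have := Perm.mem_alternatingGroup.1 (hA g.2)
      rw [e, Perm.sign_subtypeCongr] at this
      convert this
    have hne : ψ.ker ≠ ⊤ := by
      intro e
      have : Nontrivial {x // x ∈ twoPts N Ω} := Finite.one_lt_card_iff_nontrivial.1 h2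
      apply R.not_dvd_index
      refine (alternatingGroup.index_eq_two (α := {x // x ∈ twoPts N Ω})).symm.dvd.trans
        (Subgroup.index_dvd_of_le fun r hr => ?_)
      have : ((⟨r, hr⟩, 1) : R × (resH hF.compl).range) ∈ ψ.ker := e ▸ Subgroup.mem_top _
      rw [MonoidHom.mem_ker] at this
      simpa [ψ] using this
    have k1 := Subgroup.card_le_of_le hle
    rw [← Nat.card_congr (MonoidHom.ofInjective hρ).toEquiv] at k1
    have k2 := ψ.ker.card_mul_index
    have k3 := Subgroup.one_lt_index_of_ne_top hne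
    rw [← hc, ← k2]
    nlinarith
  · intro c hcN h3
    have h1 : (⟨c, hcN⟩ : N) ∈ (resH hF).ker := by
      rw [MonoidHom.mem_ker]
      obtain ⟨k, hk⟩ := (isPGroup_twoPts (G := N) (Ω := Ω)) ⟨resH hF ⟨c, hcN⟩, _, rfl⟩
      have k1 := orderOf_dvd_of_pow_eq_one (congrArg Subtype.val hk)
      have k2 := orderOf_map_dvd (resH hF) ⟨c, hcN⟩
      rw [Subgroup.orderOf_mk, h3] at k2
      exact orderOf_eq_one_iff.1 (Nat.eq_one_of_dvd_coprimes
        (Nat.Coprime.pow_left k (by decide)) k1 k2)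
    rw [resH_ker, mem_fixingSubgroup_iff] at h1
    rw [Nat.card_coe_set_eq, ← Set.ncard_coe_finset]
    refine Set.ncard_le_ncard fun x hx hx' => ?_
    exact Perm.mem_support.1 hx (h1 x hx')

theorem isThreeCycle_of {c : Perm Ω} (h : orderOf c = 3) (h3 : c.support.card ≤ 3) :
    c.IsThreeCycle := by
  have h1 : c ≠ 1 := by rintro rfl; simp at h
  have h2 := Perm.two_le_card_support_of_ne_one h1
  rw [← card_support_eq_three_iff]
  by_contra h4
  have := (Perm.card_support_eq_two.1 (by omega : c.support.card = 2)).isCycle.orderOf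
  omega

theorem nil_le_S (hn : Fintype.card Ω % 4 ≠ 3) : Nat.card N ≤ 2 ^ vv (Fintype.card Ω) := by
  obtain ⟨f, m, I, h1, h2, h3, -, -⟩ := nil_struct N
  refine h3.trans ?_
  by_cases hm : m = 3
  · subst hm
    have k1 := vv_not_three (by omega) hn
    rw [show Fintype.card Ω - 3 = f by omega] at k1
    have k2 := Nat.pow_le_pow_right (by decide : 0 < 2) k1
    have := Nat.mul_le_mul_left (2 ^ vv f) h2.three
    rw [pow_add] at k2
    omega
  · refine (Nat.mul_le_mul_left _ (h2.le_S hm)).trans ?_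
    rw [← pow_add, ← h1]
    exact Nat.pow_le_pow_right (by decide) (vv_add _ _)

theorem nil_le_S3 (hn : Fintype.card Ω % 4 = 3) :
    Nat.card N ≤ 3 * 2 ^ vv (Fintype.card Ω - 3) ∧
    (Nat.card N = 3 * 2 ^ vv (Fintype.card Ω - 3) → ∀ c ∈ N, orderOf c = 3 → c.IsThreeCycle) := by
  obtain ⟨f, m, I, h1, h2, h3, -, h4⟩ := nil_struct N
  by_cases hm : m = 3
  · subst hm
    rw [show Fintype.card Ω - 3 = f by omega]
    have := Nat.mul_le_mul_left (2 ^ vv f) h2.three
    exact ⟨by omega, fun _ c hc h => isThreeCycle_of h (h4 c hc h)⟩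
  · have k := h3.trans (Nat.mul_le_mul_left _ (h2.le_S hm))
    rw [← pow_add] at k
    have k1 := vv_add f m
    rw [h1, vv_three hn] at k1
    have k2 := Nat.pow_le_pow_right (by decide : 0 < 2) k1
    rw [pow_succ] at k2
    have : 0 < 2 ^ vv (Fintype.card Ω - 3) := by positivity
    exact ⟨by omega, fun _ => by omega⟩

theorem two_pow_pred {a : ℕ} (h : 1 ≤ a) : 2 ^ a = 2 * 2 ^ (a - 1) := by
  rw [← pow_succ']; congr 1; omega

theorem one_le_vv {a : ℕ} (h : 2 ≤ a) : 1 ≤ vv a := by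
  have := vv_mono h
  rwa [vv_small (by decide)] at this

theorem nil_le_A (hA : N ≤ alternatingGroup Ω) (hn : Fintype.card Ω % 4 ≠ 3)
    (h5 : Fintype.card Ω ≠ 5) (h6 : Fintype.card Ω ≠ 6) (h9 : Fintype.card Ω ≠ 9) :
    Nat.card N ≤ 2 ^ (vv (Fintype.card Ω) - 1) := by
  obtain ⟨f, m, I, h1, h2, h3, h3', -⟩ := nil_struct N
  rcases Nat.lt_or_ge f 2 with hf | hf
  · have : vv f = 0 := by rw [vv_small (by omega)]; omega
    rw [this, pow_zero, one_mul] at h3
    exact h3.trans (h2.le_A (by omega) (by omega) hn h5 h6 h9)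
  have k := h3' hA hf
  suffices 2 ^ vv f * I ≤ 2 ^ vv (Fintype.card Ω) by
    rw [two_pow_pred (one_le_vv (a := Fintype.card Ω) (by omega))] at this; omega
  by_cases hm : m = 3
  · subst hm
    have k1 := vv_not_three (by omega) hn
    rw [show Fintype.card Ω - 3 = f by omega] at k1
    have k2 := Nat.pow_le_pow_right (by decide : 0 < 2) k1
    have := Nat.mul_le_mul_left (2 ^ vv f) h2.three
    rw [pow_add] at k2
    omega
  · refine (Nat.mul_le_mul_left _ (h2.le_S hm)).trans ?_
    rw [← pow_add, ← h1]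
    exact Nat.pow_le_pow_right (by decide) (vv_add _ _)

theorem nil_le_A3 (hA : N ≤ alternatingGroup Ω) (hn : Fintype.card Ω % 4 = 3)
    (h7 : 7 ≤ Fintype.card Ω) :
    Nat.card N ≤ 3 * 2 ^ (vv (Fintype.card Ω - 3) - 1) ∧
    (Nat.card N = 3 * 2 ^ (vv (Fintype.card Ω - 3) - 1) →
      ∀ c ∈ N, orderOf c = 3 → c.IsThreeCycle) := by
  obtain ⟨f, m, I, h1, h2, h3, h3', h4⟩ := nil_struct N
  rcases Nat.lt_or_ge f 2 with hf | hf
  · have : vv f = 0 := by rw [vv_small (by omega)]; omega
    rw [this, pow_zero, one_mul] at h3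
    have := h2.lt_A (n := Fintype.card Ω) (by omega) (by omega) hn h7
    exact ⟨by omega, fun _ => by omega⟩
  have k := h3' hA hf
  have e := two_pow_pred (one_le_vv (a := Fintype.card Ω - 3) (by omega))
  by_cases hm : m = 3
  · subst hm
    rw [show Fintype.card Ω - 3 = f by omega] at e ⊢
    have := Nat.mul_le_mul_left (2 ^ vv f) h2.three
    exact ⟨by omega, fun _ c hc h => isThreeCycle_of h (h4 c hc h)⟩
  · have k := k.trans (Nat.mul_le_mul_left _ (h2.le_S hm))
    rw [← pow_add] at k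
    have k1 := vv_add f m
    rw [h1, vv_three hn] at k1
    have k2 := Nat.pow_le_pow_right (by decide : 0 < 2) k1
    rw [pow_succ] at k2
    have : 0 < 2 ^ (vv (Fintype.card Ω - 3) - 1) := by positivity
    exact ⟨by omega, fun _ => by omega⟩

end perm

section conj
variable {G : Type*} [Group G] [Finite G]

theorem sup_zpowers {c : G} (hc : orderOf c = 3) (R : Subgroup G) (hR : IsPGroup 2 R)
    (hRc : R ≤ Subgroup.centralizer {c}) :
    Group.IsNilpotent ↥(R ⊔ Subgroup.zpowers c) ∧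
      Nat.card ↥(R ⊔ Subgroup.zpowers c) = 3 * Nat.card R := by
  have hcomm : ∀ (m : R) (n : Subgroup.zpowers c),
      Commute (R.subtype m) ((Subgroup.zpowers c).subtype n) := by
    rintro ⟨m, hm⟩ ⟨_, k, rfl⟩
    exact (Commute.zpow_left (hRc hm c rfl) k).symm
  have h3 : IsPGroup 3 (Subgroup.zpowers c) :=
    IsPGroup.of_card (n := 1) (by rw [Nat.card_zpowers, hc, pow_one])
  let ρ := R.subtype.noncommCoprod (Subgroup.zpowers c).subtype hcomm
  have hr : ρ.range = R ⊔ Subgroup.zpowers c := by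
    rw [MonoidHom.noncommCoprod_range, Subgroup.range_subtype, Subgroup.range_subtype]
  have hi : Function.Injective ρ := by
    rw [MonoidHom.noncommCoprod_injective, Subgroup.range_subtype, Subgroup.range_subtype]
    exact ⟨Subtype.val_injective, Subtype.val_injective,
      IsPGroup.disjoint_of_ne 2 3 (by decide) _ _ hR h3⟩
  have := hR.isNilpotent
  have := h3.isNilpotent
  rw [← hr]
  refine ⟨Group.nilpotent_of_mulEquiv (MonoidHom.ofInjective hi), ?_⟩
  rw [← Nat.card_congr (MonoidHom.ofInjective hi).toEquiv, Nat.card_prod, Nat.card_zpowers, hc,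
    mul_comm]

theorem nil_split {e : ℕ} (hb : ∀ N : Subgroup G, Group.IsNilpotent N → Nat.card N ≤ 3 * 2 ^ e)
    {c : G} (hc : orderOf c = 3) (N : Subgroup G) (hN : Group.IsNilpotent N)
    (hcard : Nat.card N = 3 * 2 ^ e) (hcN : c ∈ N) :
    ∃ R : Sylow 2 (Subgroup.centralizer ({c} : Set G)),
      N = R.toSubgroup.map (Subgroup.subtype _) ⊔ Subgroup.zpowers c := by
  obtain ⟨P⟩ : Nonempty (Sylow 2 N) := inferInstance
  have hP : Nat.card P = 2 ^ e := by
    rw [P.card_eq_multiplicity, hcard, Nat.factorization_mul (by decide) (by positivity),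
      Finsupp.add_apply, Nat.factorization_eq_zero_of_not_dvd (by decide), Nat.prime_two.factorization_pow]
    simp
  have h3 : IsPGroup 3 (Subgroup.zpowers (⟨c, hcN⟩ : N)) :=
    IsPGroup.of_card (n := 1) (by rw [Nat.card_zpowers, Subgroup.orderOf_mk, hc, pow_one])
  obtain ⟨Q, hQ⟩ := h3.exists_le_sylow
  let P' : Subgroup G := (P : Subgroup N).map N.subtype
  have hP' : Nat.card P' = 2 ^ e := by rw [Subgroup.card_subtype, hP]
  have hPc : P' ≤ Subgroup.centralizer {c} := by
    rintro _ ⟨x, hx, rfl⟩ _ rfl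
    exact congrArg Subtype.val
      (sylow_commute (by decide) Q P (hQ (Subgroup.mem_zpowers _)) hx).eq
  have hP2 : IsPGroup 2 P' := IsPGroup.of_card hP'
  obtain ⟨R, hR⟩ := (hP2.comap_subtype (K := Subgroup.centralizer {c})).exists_le_sylow
  let R' : Subgroup G := R.toSubgroup.map (Subgroup.subtype _)
  have hPR : P' ≤ R' := fun x hx => ⟨⟨x, hPc hx⟩, hR hx, rfl⟩
  obtain ⟨k1, k2⟩ := sup_zpowers hc R' (R.isPGroup'.map _) (Subgroup.map_subtype_le _)
  have k3 := hb _ k1
  have k4 : P' = R' := Subgroup.eq_of_le_of_card_ge hPR (by omega)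
  refine ⟨R, (Subgroup.eq_of_le_of_card_ge ?_ ?_).symm⟩
  · refine sup_le (k4 ▸ Subgroup.map_subtype_le _ : R' ≤ N) (Subgroup.zpowers_le.2 hcN)
  · change _ ≤ Nat.card ↥(R' ⊔ Subgroup.zpowers c)
    rw [k2, ← k4, hP', hcard]

theorem nil_conj {e : ℕ} (hb : ∀ N : Subgroup G, Group.IsNilpotent N → Nat.card N ≤ 3 * 2 ^ e)
    (T : G → Prop) (hT : ∀ N : Subgroup G, Group.IsNilpotent N → Nat.card N = 3 * 2 ^ e →
      ∀ c ∈ N, orderOf c = 3 → T c) (hc : ∀ c d, T c → T d → IsConj c d)
    (N₁ N₂ : Subgroup G) (h1 : Group.IsNilpotent N₁) (h2 : Group.IsNilpotent N₂)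
    (e1 : Nat.card N₁ = 3 * 2 ^ e) (e2 : Nat.card N₂ = 3 * 2 ^ e) :
    ∃ g : G, N₂ = N₁.map (MulAut.conj g).toMonoidHom := by
  obtain ⟨c, hc1⟩ := exists_prime_orderOf_dvd_card' (G := N₁) 3 (e1 ▸ dvd_mul_right _ _)
  obtain ⟨d, hd1⟩ := exists_prime_orderOf_dvd_card' (G := N₂) 3 (e2 ▸ dvd_mul_right _ _)
  rw [← Subgroup.orderOf_coe] at hc1 hd1
  obtain ⟨g, hg⟩ := isConj_iff.1 (hc _ _ (hT N₁ h1 e1 c c.2 hc1) (hT N₂ h2 e2 d d.2 hd1))
  let N₃ := N₁.map (MulAut.conj g).toMonoidHom
  have i3 : N₁ ≃* N₃ := N₁.equivMapOfInjective _ (MulAut.conj g).injective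
  obtain ⟨R₃, r3⟩ := nil_split hb hd1 N₃ (Group.nilpotent_of_mulEquiv i3)
    (by rw [← Nat.card_congr i3.toEquiv, e1]) ⟨c, c.2, hg⟩
  obtain ⟨R₂, r2⟩ := nil_split hb hd1 N₂ h2 e2 d.2
  obtain ⟨h, hh⟩ := MulAction.exists_smul_eq (Subgroup.centralizer ({(d : G)} : Set G)) R₃ R₂
  refine ⟨h * g, ?_⟩
  have : N₁.map (MulAut.conj ((h : G) * g)).toMonoidHom =
      N₃.map (MulAut.conj (h : G)).toMonoidHom := by
    rw [Subgroup.map_map]; congr 1; ext x; simp [mul_assoc]
  rw [this, r3]
  refine r2.trans ?_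
  rw [Subgroup.map_sup, MonoidHom.map_zpowers, ← hh]
  congr 1
  · rw [Sylow.coe_subgroup_smul, Subgroup.pointwise_smul_def, Subgroup.map_map]
    refine (Subgroup.map_map _ _ _).trans ?_
    congr 1
  · congr 1
    have := h.2 d rfl
    simp [← this]

end conj

theorem exists_prod_three {n : ℕ} (hn : 3 ≤ n) (P : Subgroup (Perm (Fin (n - 3))))
    (hP : IsPGroup 2 P) : ∃ M : Subgroup (Perm (Fin n)), Group.IsNilpotent M ∧
      Nat.card M = 3 * Nat.card P ∧ Nonempty (M ≃* (P × Multiplicative (ZMod 3))) ∧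
      (P ≤ alternatingGroup _ → M ≤ alternatingGroup _) := by
  let e : Fin (n - 3) ⊕ Fin 3 ≃ Fin n := finSumFinEquiv.trans (finCongr (by omega))
  have h3 : Nat.card (Subgroup.zpowers (finRotate 3)) = 3 := by
    rw [Nat.card_zpowers]; exact orderOf_eq_prime (by decide) (by decide)
  have := hP.isNilpotent
  have := (IsPGroup.of_card (p := 3) (n := 1) h3).isNilpotent
  refine ⟨prodSub e P (Subgroup.zpowers (finRotate 3)),
    Group.nilpotent_of_mulEquiv (prodSubEquiv e _ _).symm, by rw [card_prodSub, h3, mul_comm],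
    ⟨(prodSubEquiv e _ _).trans ((MulEquiv.refl _).prodCongr
      (mulEquivOfPrimeCardEq h3 (by simp)))⟩, fun h => prodSub_le_alt e h ?_⟩
  exact Subgroup.zpowers_le.2 (Perm.mem_alternatingGroup.2 (by decide))

end Cfsg.Agent.PermB
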